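import Cfsg.Agent.Eq.Def_Classical
import Cfsg.Agent.Classical.Unitary.Field
import Cfsg.Prelude.Def_Classical

/-!
The special unitary group of the Hermitian form with antidiagonal Gram matrix, and its Eichler
elements `x ↦ x + h(x, w) e - h(x, e) w + c h(x, e) e`.
-/

set_option autoImplicit false

namespace CfsgLib.Unitary.Anti

open Matrix Cfsg CfsgLib.Unitary

variable {F : Type*} [Field F] {n q : ℕ}

/-- The Hermitian form with antidiagonal Gram matrix. -/
def antiH (q : ℕ) (u v : Fin n → F) : F := ∑ i, u i * v (Fin.rev i) ^ q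

/-- The special unitary group of `antiH`. -/
abbrev SUJ (n : ℕ) (F : Type*) [Field F] (q : ℕ) : Subgroup (SpecialLinearGroup (Fin n) F) :=
  Cfsg.preserving (Cfsg.slToMat n F) (antiH (n := n) q)

/-- The standard basis. -/
def bv (s : Fin n) : Fin n → F := Pi.single s 1

@[simp] theorem bv_self (s : Fin n) : (bv s : Fin n → F) s = 1 := Pi.single_eq_same _ _

theorem bv_ne {s t : Fin n} (h : t ≠ s) : (bv s : Fin n → F) t = 0 := Pi.single_eq_of_ne h _

theorem bv_apply (s t : Fin n) : (bv s : Fin n → F) t = if t = s then 1 else 0 := by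
  rw [bv, Pi.single_apply]

/-- The indicator vector of the middle coordinate (zero in even dimension). -/
def midV : Fin n → F := fun i => if Fin.rev i = i then 1 else 0

theorem antiH_add_left (u u' v : Fin n → F) : antiH q (u + u') v = antiH q u v + antiH q u' v := by
  simp [antiH, add_mul, Finset.sum_add_distrib]

theorem antiH_smul_left (a : F) (u v : Fin n → F) : antiH q (a • u) v = a * antiH q u v := by
  simp [antiH, Finset.mul_sum, mul_assoc]

theorem antiH_zero_left (v : Fin n → F) : antiH q 0 v = 0 := by simp [antiH]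

theorem antiH_neg_left (u v : Fin n → F) : antiH q (-u) v = -antiH q u v := by
  simp [antiH]

theorem antiH_sub_left (u u' v : Fin n → F) : antiH q (u - u') v = antiH q u v - antiH q u' v := by
  rw [sub_eq_add_neg, antiH_add_left, antiH_neg_left, sub_eq_add_neg]

theorem antiH_smul_right (a : F) (u v : Fin n → F) : antiH q u (a • v) = a ^ q * antiH q u v := by
  simp only [antiH, Finset.mul_sum, Pi.smul_apply, smul_eq_mul, mul_pow]
  exact Finset.sum_congr rfl fun i _ => by ring

variable [Fintype F] (hF : Fintype.card F = q ^ 2)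

include hF

theorem antiH_add_right (u v v' : Fin n → F) : antiH q u (v + v') = antiH q u v + antiH q u v' := by
  simp [antiH, add_pow_q hF, mul_add, Finset.sum_add_distrib]

theorem antiH_zero_right (u : Fin n → F) : antiH q u 0 = 0 := by
  simp [antiH, zero_pow_q hF]

theorem antiH_neg_right (u v : Fin n → F) : antiH q u (-v) = -antiH q u v := by
  simp [antiH, neg_pow_q hF]

theorem antiH_sub_right (u v v' : Fin n → F) : antiH q u (v - v') = antiH q u v - antiH q u v' := by
  rw [sub_eq_add_neg, antiH_add_right hF, antiH_neg_right hF, sub_eq_add_neg]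

theorem antiH_sum_right {ι : Type*} (s : Finset ι) (u : Fin n → F) (v : ι → Fin n → F) :
    antiH q u (∑ i ∈ s, v i) = ∑ i ∈ s, antiH q u (v i) := by
  classical
  induction s using Finset.induction_on with
  | empty => simp [antiH_zero_right hF]
  | insert a s ha ih => rw [Finset.sum_insert ha, Finset.sum_insert ha, antiH_add_right hF, ih]

theorem antiH_conj (u v : Fin n → F) : antiH q v u = antiH q u v ^ q := by
  rw [antiH, antiH, sum_pow_q hF]
  refine (Fintype.sum_equiv Fin.revPerm _ _ fun i => ?_)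
  simp [mul_pow, pow_q_q hF, mul_comm]

theorem antiH_bv_right (u : Fin n → F) (s : Fin n) : antiH q u (bv s) = u (Fin.rev s) := by
  rw [antiH, Finset.sum_eq_single (Fin.rev s)]
  · simp
  · intro i _ hi
    rw [bv_ne (fun h => hi (by rw [← h, Fin.rev_rev])), zero_pow_q hF, mul_zero]
  · simp

theorem antiH_bv_left (v : Fin n → F) (s : Fin n) : antiH q (bv s) v = v (Fin.rev s) ^ q := by
  rw [antiH_conj hF, antiH_bv_right hF]

theorem antiH_bv_bv (s t : Fin n) : antiH q (bv s : Fin n → F) (bv t) = if Fin.rev t = s then 1 else 0 := by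
  rw [antiH_bv_right hF, bv_apply]

theorem antiH_self_fixed (u : Fin n → F) : antiH q u u ^ q = antiH q u u := (antiH_conj hF u u).symm

omit hF [Fintype F] in
theorem sum_bv (x : Fin n → F) : x = ∑ s, x s • bv s := by
  ext t
  simp [bv_apply]

theorem antiH_nondeg {u : Fin n → F} (h : ∀ v, antiH q u v = 0) : u = 0 := by
  funext i
  have := h (bv (Fin.rev i))
  rwa [antiH_bv_right hF, Fin.rev_rev] at this

omit [Fintype F] hF

/-- The action of an element on a vector. -/
def av (A : ↥(SUJ n F q)) (x : Fin n → F) : Fin n → F :=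
  ((A : SpecialLinearGroup (Fin n) F) : Matrix (Fin n) (Fin n) F) *ᵥ x

theorem av_mul (A B : ↥(SUJ n F q)) (x : Fin n → F) : av (A * B) x = av A (av B x) :=
  (Matrix.mulVec_mulVec x _ _).symm

@[simp] theorem av_one (x : Fin n → F) : av (1 : ↥(SUJ n F q)) x = x := Matrix.one_mulVec x

theorem av_inv_av (A : ↥(SUJ n F q)) (x : Fin n → F) : av A⁻¹ (av A x) = x := by
  rw [← av_mul, inv_mul_cancel, av_one]

theorem av_av_inv (A : ↥(SUJ n F q)) (x : Fin n → F) : av A (av A⁻¹ x) = x := by
  rw [← av_mul, mul_inv_cancel, av_one]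

theorem av_herm (A : ↥(SUJ n F q)) (x y : Fin n → F) : antiH q (av A x) (av A y) = antiH q x y := A.2 x y

theorem av_add (A : ↥(SUJ n F q)) (x y : Fin n → F) : av A (x + y) = av A x + av A y :=
  Matrix.mulVec_add _ _ _

theorem av_smul (A : ↥(SUJ n F q)) (c : F) (x : Fin n → F) : av A (c • x) = c • av A x :=
  Matrix.mulVec_smul _ _ _

theorem av_sub (A : ↥(SUJ n F q)) (x y : Fin n → F) : av A (x - y) = av A x - av A y :=
  Matrix.mulVec_sub _ _ _

theorem av_neg (A : ↥(SUJ n F q)) (x : Fin n → F) : av A (-x) = -av A x := Matrix.mulVec_neg _ _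

theorem av_zero (A : ↥(SUJ n F q)) : av A 0 = 0 := Matrix.mulVec_zero _

theorem av_sum (A : ↥(SUJ n F q)) {ι : Type*} (s : Finset ι) (f : ι → Fin n → F) :
    av A (∑ i ∈ s, f i) = ∑ i ∈ s, av A (f i) := Matrix.mulVec_sum _ _ _

/-- The entry at `(a, b)`. -/
abbrev ent (g : ↥(SUJ n F q)) (a b : Fin n) : F :=
  ((g : SpecialLinearGroup (Fin n) F) : Matrix (Fin n) (Fin n) F) a b

theorem av_bv (A : ↥(SUJ n F q)) (s : Fin n) (t : Fin n) : av A (bv s) t = ent A t s := by
  simp [av, bv]

theorem av_ext_bv {A B : ↥(SUJ n F q)} (h : ∀ s, av A (bv s) = av B (bv s)) : A = B := by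
  refine Subtype.ext (Subtype.ext ?_)
  ext t s
  show ent A t s = ent B t s
  rw [← av_bv, ← av_bv, h]

theorem av_ext {A B : ↥(SUJ n F q)} (h : ∀ x, av A x = av B x) : A = B := av_ext_bv fun s => h _

variable [Fintype F]

/-- The parameters of an Eichler element. -/
structure IsEich (q : ℕ) (e w : Fin n → F) (c : F) : Prop where
  iso : antiH q e e = 0
  perp : antiH q e w = 0
  trace : c + c ^ q + antiH q w w = 0

theorem IsEich.perp' (hF : Fintype.card F = q ^ 2) {e w : Fin n → F} {c : F} (h : IsEich q e w c) :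
    antiH q w e = 0 := by rw [antiH_conj hF, h.perp, zero_pow_q hF]

/-- The matrix of `x ↦ x + h(x, z) • w`. -/
def rankOneJ (q : ℕ) (w z : Fin n → F) : Matrix (Fin n) (Fin n) F :=
  1 + Matrix.vecMulVec w (fun j => z (Fin.rev j) ^ q)

omit [Fintype F] in
theorem rankOneJ_mulVec (w z x : Fin n → F) : rankOneJ q w z *ᵥ x = x + antiH q x z • w := by
  rw [rankOneJ, Matrix.add_mulVec, Matrix.one_mulVec, Matrix.vecMulVec_mulVec]
  congr 1
  funext i
  simp [antiH, dotProduct, mul_comm]

omit [Fintype F] in
theorem det_rankOneJ (w z : Fin n → F) : (rankOneJ q w z).det = 1 + antiH q w z := by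
  rw [rankOneJ, Matrix.vecMulVec_eq Unit, Matrix.det_one_add_replicateCol_mul_replicateRow]
  simp [antiH, dotProduct, mul_comm]

/-- The matrix of an Eichler element. -/
def eichMat (q : ℕ) (e w : Fin n → F) (c : F) : Matrix (Fin n) (Fin n) F :=
  rankOneJ q e w * rankOneJ q (-w + (c + antiH q w w) • e) e

theorem eichMat_mulVec {e w : Fin n → F} {c : F} (h : IsEich q e w c) (x : Fin n → F) :
    eichMat q e w c *ᵥ x = x + antiH q x w • e - antiH q x e • w + (c * antiH q x e) • e := by
  rw [eichMat, ← Matrix.mulVec_mulVec, rankOneJ_mulVec, rankOneJ_mulVec]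
  simp only [antiH_add_left, antiH_smul_left, antiH_neg_left, h.perp, mul_zero]
  module

/-- The Eichler element. -/
def eich (hF : Fintype.card F = q ^ 2) (e w : Fin n → F) (c : F) (h : IsEich q e w c) : ↥(SUJ n F q) :=
  ⟨⟨eichMat q e w c, by
    rw [eichMat, Matrix.det_mul, det_rankOneJ, det_rankOneJ, antiH_add_left, antiH_neg_left,
      antiH_smul_left, h.perp, h.iso, h.perp' hF]
    simp⟩, fun x y => by
    show antiH q (eichMat q e w c *ᵥ x) (eichMat q e w c *ᵥ y) = _
    rw [eichMat_mulVec h, eichMat_mulVec h]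
    simp only [antiH_add_left, antiH_sub_left, antiH_smul_left, antiH_add_right hF, antiH_sub_right hF,
      antiH_smul_right, h.iso, h.perp, h.perp' hF]
    rw [antiH_conj hF y e, antiH_conj hF y w, mul_pow]
    linear_combination (antiH q x e * antiH q y e ^ q) * h.trace⟩

theorem av_eich (hF : Fintype.card F = q ^ 2) {e w : Fin n → F} {c : F} (h : IsEich q e w c) (x : Fin n → F) :
    av (eich hF e w c h) x = x + antiH q x w • e - antiH q x e • w + (c * antiH q x e) • e :=
  eichMat_mulVec h x

theorem IsEich.map {e w : Fin n → F} {c : F} (h : IsEich q e w c) (g : ↥(SUJ n F q)) :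
    IsEich q (av g e) (av g w) c :=
  ⟨by rw [av_herm, h.iso], by rw [av_herm, h.perp], by rw [av_herm, h.trace]⟩

theorem conj_eich (hF : Fintype.card F = q ^ 2) (g : ↥(SUJ n F q)) {e w : Fin n → F} {c : F}
    (h : IsEich q e w c) :
    g * eich hF e w c h * g⁻¹ = eich hF (av g e) (av g w) c (h.map g) := by
  refine av_ext fun x => ?_
  rw [av_mul, av_mul, av_eich, av_eich, av_add, av_sub, av_add, av_smul, av_smul, av_smul, av_av_inv]
  have hh : ∀ v, antiH q x (av g v) = antiH q (av g⁻¹ x) v := fun v => by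
    conv_lhs => rw [← av_av_inv g x]
    rw [av_herm]
  rw [hh, hh]

theorem eich_congr (hF : Fintype.card F = q ^ 2) {e w e' w' : Fin n → F} {c c' : F} (h : IsEich q e w c)
    (h' : IsEich q e' w' c') (he : e = e') (hw : w = w') (hc : c = c') :
    eich hF e w c h = eich hF e' w' c' h' := by
  subst he hw hc; rfl

theorem eich_mul (hF : Fintype.card F = q ^ 2) {e w w' : Fin n → F} {c c' : F} (h : IsEich q e w c)
    (h' : IsEich q e w' c') (h'' : IsEich q e (w + w') (c + c' - antiH q w' w)) :
    eich hF e w c h * eich hF e w' c' h' = eich hF e (w + w') (c + c' - antiH q w' w) h'' := by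
  refine av_ext fun x => ?_
  rw [av_mul, av_eich, av_eich, av_eich]
  simp only [antiH_add_left, antiH_sub_left, antiH_smul_left, antiH_add_right hF, h.iso, h.perp,
    h'.perp' hF, mul_zero]
  module

theorem eich_eq_one (hF : Fintype.card F = q ^ 2) {e w : Fin n → F} {c : F} (h : IsEich q e w c)
    (hw : w = 0) (hc : c = 0) : eich hF e w c h = 1 := by
  refine av_ext fun x => ?_
  rw [av_eich, av_one, hw, hc, antiH_zero_right hF]
  simp

theorem eich_smul (hF : Fintype.card F = q ^ 2) {e w : Fin n → F} {c l : F} (h : IsEich q (l • e) w c)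
    (h' : IsEich q e (l ^ q • w) (l ^ (q + 1) * c)) :
    eich hF (l • e) w c h = eich hF e (l ^ q • w) (l ^ (q + 1) * c) h' := by
  refine av_ext fun x => ?_
  rw [av_eich, av_eich, antiH_smul_right, antiH_smul_right, pow_q_q hF, pow_succ]
  module

end CfsgLib.Unitary.Anti
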