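import Cfsg.Agent.Classical.Unitary.Anti.Unipotent

/-!
Transvections, Weyl elements and coroot elements in the antidiagonal unitary group; the centre of the
unitriangular group; radicals of the minimal parabolic subgroups are self-centralizing.
-/

set_option autoImplicit false

namespace CfsgLib.Unitary.Anti

open Matrix Cfsg CfsgLib.Unitary

variable {F : Type*} [Field F] [Fintype F] {n q : ℕ}

omit [Fintype F] in
theorem top_ne {k : Fin n} (hk : k < Fin.rev k) : Fin.rev k ≠ k := hk.ne'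

omit [Fintype F] in
theorem midV_eq_bv {s : Fin n} (hs : Fin.rev s = s) : (midV : Fin n → F) = bv s := by
  funext t
  by_cases ht : t = s
  · rw [ht, midV_of_eq hs, bv_self]
  · rw [bv_ne ht, midV_of_ne (fun h => ht (mid_unique h hs))]

omit [Fintype F] in
theorem midV_eq_zero (h : ∀ s : Fin n, Fin.rev s ≠ s) : (midV : Fin n → F) = 0 :=
  funext fun t => midV_of_ne (h t)

variable (hF : Fintype.card F = q ^ 2)

include hF

theorem iso_bv {k : Fin n} (hk : Fin.rev k ≠ k) : antiH q (bv k : Fin n → F) (bv k) = 0 := by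
  rw [antiH_bv_bv hF, if_neg hk]

theorem mu_of_eq {s : Fin n} (hs : Fin.rev s = s) : μ n F q = 1 := by
  rw [μ, midV_eq_bv hs, antiH_bv_bv hF, if_pos hs]

theorem mu_of_ne (h : ∀ s : Fin n, Fin.rev s ≠ s) : μ n F q = 0 := by
  rw [μ, midV_eq_zero h, antiH_zero_left]

theorem exists_trace_zero_ne : ∃ δ : F, δ ≠ 0 ∧ δ + δ ^ q = 0 := by
  by_contra hcon
  push Not at hcon
  have h1 := card_trace_zero hF
  have h2 : Nat.card {x : F // x + x ^ q = 0} ≤ 1 := by
    refine Finite.card_le_one_iff_subsingleton.2 ⟨fun x y => Subtype.ext ?_⟩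
    rw [not_imp_not.1 (hcon x.1) x.2, not_imp_not.1 (hcon y.1) y.2]
  have := two_le_q hF
  omega

theorem exists_not_fixed : ∃ a : F, a ^ q ≠ a := by
  by_contra hcon
  push Not at hcon
  have h1 := card_fixed hF
  rw [Nat.card_congr (Equiv.subtypeUnivEquiv hcon), Nat.card_eq_fintype_card, hF] at h1
  have := two_le_q hF
  nlinarith

theorem pow_q_add_one_zero : (0 : F) ^ (q + 1) = 0 := zero_pow (Nat.succ_ne_zero q)

theorem isEich_trv {v : Fin n → F} (hv : antiH q v v = 0) {δ : F} (hδ : δ + δ ^ q = 0) :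
    IsEich q v 0 δ :=
  ⟨hv, antiH_zero_right hF v, by rw [antiH_zero_left, add_zero, hδ]⟩

/-- The unitary transvection `x ↦ x + δ h(x, v) v`. -/
def trv (v : Fin n → F) (hv : antiH q v v = 0) (δ : F) (hδ : δ + δ ^ q = 0) : ↥(SUJ n F q) :=
  eich hF v 0 δ (isEich_trv hF hv hδ)

theorem av_trv {v : Fin n → F} (hv : antiH q v v = 0) {δ : F} (hδ : δ + δ ^ q = 0) (x : Fin n → F) :
    av (trv hF v hv δ hδ) x = x + (δ * antiH q x v) • v := by
  rw [trv, av_eich, antiH_zero_right hF, zero_smul, smul_zero, add_zero, sub_zero]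

theorem trv_congr {v v' : Fin n → F} (hv : antiH q v v = 0) (hv' : antiH q v' v' = 0) {δ δ' : F}
    (hδ : δ + δ ^ q = 0) (hδ' : δ' + δ' ^ q = 0) (h1 : v = v') (h2 : δ = δ') :
    trv hF v hv δ hδ = trv hF v' hv' δ' hδ' := by
  subst h1 h2; rfl

theorem conj_trv (g : ↥(SUJ n F q)) {v : Fin n → F} (hv : antiH q v v = 0) {δ : F} (hδ : δ + δ ^ q = 0) :
    g * trv hF v hv δ hδ * g⁻¹ = trv hF (av g v) (by rw [av_herm, hv]) δ hδ := by
  rw [trv, trv, conj_eich]
  exact eich_congr hF _ _ rfl (av_zero g) rfl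

theorem trv_smul {v : Fin n → F} {l : F} (hlv : antiH q (l • v) (l • v) = 0) (hv : antiH q v v = 0) {δ : F}
    (hδ : δ + δ ^ q = 0) (hδ' : l ^ (q + 1) * δ + (l ^ (q + 1) * δ) ^ q = 0) :
    trv hF (l • v) hlv δ hδ = trv hF v hv (l ^ (q + 1) * δ) hδ' := by
  refine av_ext fun x => ?_
  rw [av_trv hF, av_trv hF, antiH_smul_right, pow_succ]
  module

theorem trv_eq_one {v : Fin n → F} (hv : antiH q v v = 0) {δ : F} (hδ : δ + δ ^ q = 0) (h : δ = 0) :
    trv hF v hv δ hδ = 1 :=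
  eich_eq_one hF _ rfl h

theorem trace_W_zero {δ : F} (hδ : δ + δ ^ q = 0) : δ + δ ^ q + (0 : F) ^ (q + 1) * μ n F q = 0 := by
  rw [pow_q_add_one_zero hF, zero_mul, add_zero, hδ]

theorem W_zero {k : Fin n} (hk : Fin.rev k ≠ k) {δ : F} (hδ : δ + δ ^ q = 0) :
    W hF hk 0 δ (trace_W_zero hF hδ) = trv hF (bv k) (iso_bv hF hk) δ hδ :=
  eich_congr hF _ _ rfl (zero_smul F _) rfl

/-- Root elements with negative parameters. -/
theorem X_rev {k l : Fin n} (hk : Fin.rev k ≠ k) (hl : Fin.rev l ≠ l) (hkl : k ≠ l)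
    (hkl' : Fin.rev l ≠ Fin.rev k) (a : F) :
    X hF hk hl hkl a = X hF (rev_ne_rev hl) (rev_ne_rev hk) hkl' (-(a ^ q)) := by
  refine av_ext fun x => ?_
  rw [av_X hF, av_X hF, Fin.rev_rev, Fin.rev_rev, neg_pow_q hF, pow_q_q hF]
  module

/-- Scalars slide between the two vectors of a short Eichler element. -/
theorem eich_zero_smul {e w : Fin n → F} {b m : F} (h : IsEich q (b • e) (m • w) 0)
    (h' : IsEich q ((m ^ q * b) • e) w 0) :
    eich hF (b • e) (m • w) 0 h = eich hF ((m ^ q * b) • e) w 0 h' := by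
  refine av_ext fun x => ?_
  rw [av_eich, av_eich, antiH_smul_right, antiH_smul_right, antiH_smul_right, mul_pow, pow_q_q hF]
  module

section Support

variable {v : Fin n → F} (hv : ∀ t : Fin n, ¬ t < Fin.rev t → v t = 0)

include hv in
/-- Vectors supported on the top half are isotropic. -/
theorem iso_of_top {w : Fin n → F} (hw : ∀ t : Fin n, ¬ t < Fin.rev t → w t = 0) : antiH q v w = 0 := by
  refine Finset.sum_eq_zero fun i _ => ?_
  by_cases hi : i < Fin.rev i
  · rw [hw (Fin.rev i) (by rw [Fin.rev_rev]; exact hi.not_gt), zero_pow_q hF, mul_zero]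
  · rw [hv i hi, zero_mul]

include hv in
theorem trv_mem_uni (hvv : antiH q v v = 0) {δ : F} (hδ : δ + δ ^ q = 0) :
    trv hF v hvv δ hδ ∈ (uni : Subgroup ↥(SUJ n F q)) := by
  refine mem_rad_of_bv fun s t hst => ?_
  have hst' : s ≤ t := hst
  rw [av_trv hF, antiH_bv_left hF, Pi.add_apply, Pi.smul_apply, smul_eq_mul]
  by_cases ht : t < Fin.rev t
  · rw [hv (Fin.rev s), zero_pow_q hF, mul_zero, zero_mul, add_zero]
    rw [Fin.rev_rev, not_lt]
    exact le_trans hst' (le_trans ht.le (Fin.rev_le_rev.2 hst'))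
  · rw [hv t ht, mul_zero, add_zero]

end Support

omit hF [Fintype F] in
theorem bv_top {k : Fin n} (hk : k < Fin.rev k) (t : Fin n) (ht : ¬ t < Fin.rev t) :
    (bv k : Fin n → F) t = 0 :=
  bv_ne fun h => ht (h ▸ hk)

theorem trv_bv_mem_uni {k : Fin n} (hk : k < Fin.rev k) {δ : F} (hδ : δ + δ ^ q = 0) :
    trv hF (bv k) (iso_bv hF (top_ne hk)) δ hδ ∈ (uni : Subgroup ↥(SUJ n F q)) :=
  trv_mem_uni hF (bv_top hk) _ hδ

/-- A vector with the same transvection as a basis vector is that basis vector. -/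
theorem eq_bv_of_trv {i : Fin n} {v : Fin n → F} (hvi : v i = 1) (hv : antiH q v v = 0)
    (hi : antiH q (bv i : Fin n → F) (bv i) = 0) {δ : F} (hδ0 : δ ≠ 0) (hδ : δ + δ ^ q = 0)
    (h : trv hF v hv δ hδ = trv hF (bv i) hi δ hδ) : v = bv i := by
  funext t
  by_cases ht : t = i
  · rw [ht, hvi, bv_self]
  have h1 := congrFun (congrArg (fun g => av g (bv (Fin.rev t))) h) i
  simp only [av_trv hF, antiH_bv_left hF, Fin.rev_rev, Pi.add_apply, Pi.smul_apply, smul_eq_mul, hvi,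
    bv_ne ht, zero_pow_q hF, mul_zero, mul_one, zero_mul, add_zero, add_eq_left, mul_eq_zero, hδ0,
    false_or] at h1
  rw [bv_ne ht]
  exact eq_zero_of_pow_eq_zero h1

/-- The vector of an Eichler element is determined off the first basis vector. -/
theorem eich_bv_inj {i : Fin n} {v w : Fin n → F} {c : F} (hi : Fin.rev i ≠ i) (hv : IsEich q (bv i) v c)
    (hw : IsEich q (bv i) w c) (h : eich hF (bv i) v c hv = eich hF (bv i) w c hw) :
    (∀ t, t ≠ i → v t = w t) ∧ v i ^ q - v i = w i ^ q - w i := by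
  have h1 := congrArg (fun g => av g (bv (Fin.rev i))) h
  simp only [av_eich, antiH_bv_left hF, Fin.rev_rev, bv_self, one_pow, one_smul, mul_one] at h1
  refine ⟨fun t ht => ?_, ?_⟩
  · have h2 := congrFun h1 t
    simp [bv_ne ht] at h2
    exact h2
  · have h2 := congrFun h1 i
    simp [bv_ne hi.symm] at h2
    linear_combination h2

section Weyl

variable {k l : Fin n} (hk : Fin.rev k ≠ k) (hl : Fin.rev l ≠ l) (hkl : k ≠ l)

/-- The Weyl element exchanging two coordinates. -/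
def sw (a : F) : ↥(SUJ n F q) :=
  X hF hk hl hkl a * X hF hl hk hkl.symm (-a⁻¹) * X hF hk hl hkl a

theorem av_sw (hkl' : l ≠ Fin.rev k) {a : F} (ha : a ≠ 0) (x : Fin n → F) :
    av (sw hF hk hl hkl a) x = x + (a * x l - x k) • bv k + (-(a⁻¹ * x k) - x l) • bv l +
      ((a ^ q)⁻¹ * x (Fin.rev l) - x (Fin.rev k)) • bv (Fin.rev k) +
      (-(a ^ q * x (Fin.rev k)) - x (Fin.rev l)) • bv (Fin.rev l) := by
  have h1 : Fin.rev k ≠ Fin.rev l := fun h => hkl (Fin.rev_injective h)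
  have h2 : k ≠ Fin.rev l := fun h => hkl' (by rw [h, Fin.rev_rev])
  have haq : a ^ q ≠ 0 := pow_ne_zero _ ha
  rw [sw, av_mul, av_mul, av_X hF, av_X hF, av_X hF, neg_pow_q hF, inv_pow]
  funext t
  simp only [Pi.add_apply, Pi.sub_apply, Pi.smul_apply, smul_eq_mul, bv_self, bv_ne hkl, bv_ne hkl.symm,
    bv_ne h1, bv_ne h1.symm, bv_ne h2, bv_ne h2.symm, bv_ne hkl', bv_ne hkl'.symm, bv_ne hk, bv_ne hl,
    bv_ne hk.symm, bv_ne hl.symm]
  field_simp
  ring

theorem sw_fst (hkl' : l ≠ Fin.rev k) {a : F} (ha : a ≠ 0) :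
    av (sw hF hk hl hkl a) (bv k) = -(a⁻¹) • bv l := by
  have h1 : Fin.rev k ≠ Fin.rev l := fun h => hkl (Fin.rev_injective h)
  have h2 : k ≠ Fin.rev l := fun h => hkl' (by rw [h, Fin.rev_rev])
  rw [av_sw hF hk hl hkl hkl' ha]
  simp only [bv_self, bv_ne hkl.symm, bv_ne hk, bv_ne h2.symm]
  module

theorem sw_snd (hkl' : l ≠ Fin.rev k) {a : F} (ha : a ≠ 0) :
    av (sw hF hk hl hkl a) (bv l) = a • bv k := by
  have h1 : Fin.rev k ≠ Fin.rev l := fun h => hkl (Fin.rev_injective h)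
  rw [av_sw hF hk hl hkl hkl' ha]
  simp only [bv_self, bv_ne hkl, bv_ne hl, bv_ne hkl'.symm]
  module

theorem sw_fst_rev (hkl' : l ≠ Fin.rev k) {a : F} (ha : a ≠ 0) :
    av (sw hF hk hl hkl a) (bv (Fin.rev k)) = -(a ^ q) • bv (Fin.rev l) := by
  have h1 : Fin.rev k ≠ Fin.rev l := fun h => hkl (Fin.rev_injective h)
  rw [av_sw hF hk hl hkl hkl' ha]
  simp only [bv_self, bv_ne hk.symm, bv_ne hkl', bv_ne h1.symm]
  module

theorem sw_snd_rev (hkl' : l ≠ Fin.rev k) {a : F} (ha : a ≠ 0) :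
    av (sw hF hk hl hkl a) (bv (Fin.rev l)) = (a ^ q)⁻¹ • bv (Fin.rev k) := by
  have h1 : Fin.rev k ≠ Fin.rev l := fun h => hkl (Fin.rev_injective h)
  have h2 : k ≠ Fin.rev l := fun h => hkl' (by rw [h, Fin.rev_rev])
  rw [av_sw hF hk hl hkl hkl' ha]
  simp only [bv_self, bv_ne h2, bv_ne hl.symm, bv_ne h1]
  module

theorem sw_other (hkl' : l ≠ Fin.rev k) {a : F} (ha : a ≠ 0) {s : Fin n} (h1 : s ≠ k) (h2 : s ≠ l)
    (h3 : s ≠ Fin.rev k) (h4 : s ≠ Fin.rev l) : av (sw hF hk hl hkl a) (bv s) = bv s := by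
  rw [av_sw hF hk hl hkl hkl' ha]
  simp only [bv_ne h1.symm, bv_ne h2.symm, bv_ne h3.symm, bv_ne h4.symm]
  module

theorem sw_midV (hkl' : l ≠ Fin.rev k) {a : F} (ha : a ≠ 0) :
    av (sw hF hk hl hkl a) (midV : Fin n → F) = midV := by
  by_cases h : ∃ s : Fin n, Fin.rev s = s
  · obtain ⟨s, hs⟩ := h
    rw [midV_eq_bv hs, sw_other hF hk hl hkl hkl' ha (fun e => hk (e ▸ hs)) (fun e => hl (e ▸ hs))
      (fun e => rev_ne_rev hk (e ▸ hs)) (fun e => rev_ne_rev hl (e ▸ hs))]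
  · push Not at h
    rw [midV_eq_zero h, av_zero]

/-- The coroot element at two coordinates. -/
def hh (a : F) : ↥(SUJ n F q) := sw hF hk hl hkl a * sw hF hk hl hkl (-1)

theorem hh_fst (hkl' : l ≠ Fin.rev k) {a : F} (ha : a ≠ 0) :
    av (hh hF hk hl hkl a) (bv k) = a • bv k := by
  rw [hh, av_mul, sw_fst hF hk hl hkl hkl' (neg_ne_zero.2 one_ne_zero), av_smul,
    sw_snd hF hk hl hkl hkl' ha, smul_smul, inv_neg, inv_one, neg_neg, one_mul]

theorem hh_snd (hkl' : l ≠ Fin.rev k) {a : F} (ha : a ≠ 0) :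
    av (hh hF hk hl hkl a) (bv l) = a⁻¹ • bv l := by
  rw [hh, av_mul, sw_snd hF hk hl hkl hkl' (neg_ne_zero.2 one_ne_zero), av_smul,
    sw_fst hF hk hl hkl hkl' ha, smul_smul]
  congr 1
  ring

theorem hh_fst_rev (hkl' : l ≠ Fin.rev k) {a : F} (ha : a ≠ 0) :
    av (hh hF hk hl hkl a) (bv (Fin.rev k)) = (a ^ q)⁻¹ • bv (Fin.rev k) := by
  rw [hh, av_mul, sw_fst_rev hF hk hl hkl hkl' (neg_ne_zero.2 one_ne_zero), av_smul,
    sw_snd_rev hF hk hl hkl hkl' ha, smul_smul, neg_pow_q hF, one_pow, neg_neg, one_mul]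

theorem hh_snd_rev (hkl' : l ≠ Fin.rev k) {a : F} (ha : a ≠ 0) :
    av (hh hF hk hl hkl a) (bv (Fin.rev l)) = a ^ q • bv (Fin.rev l) := by
  rw [hh, av_mul, sw_snd_rev hF hk hl hkl hkl' (neg_ne_zero.2 one_ne_zero), av_smul,
    sw_fst_rev hF hk hl hkl hkl' ha, smul_smul, neg_pow_q hF, one_pow, inv_neg, inv_one, neg_mul_neg, one_mul]

theorem hh_other (hkl' : l ≠ Fin.rev k) {a : F} (ha : a ≠ 0) {s : Fin n} (h1 : s ≠ k) (h2 : s ≠ l)
    (h3 : s ≠ Fin.rev k) (h4 : s ≠ Fin.rev l) : av (hh hF hk hl hkl a) (bv s) = bv s := by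
  rw [hh, av_mul, sw_other hF hk hl hkl hkl' (neg_ne_zero.2 one_ne_zero) h1 h2 h3 h4,
    sw_other hF hk hl hkl hkl' ha h1 h2 h3 h4]

end Weyl

theorem trace_low {a c : F} (hc0 : c ≠ 0) (hc : c + c ^ q + a ^ (q + 1) * μ n F q = 0) :
    (c ^ q)⁻¹ + ((c ^ q)⁻¹) ^ q + (-(a / c)) ^ (q + 1) * μ n F q = 0 ∧
    (c ^ q)⁻¹ + ((c ^ q)⁻¹) ^ q + (-(a / c ^ q)) ^ (q + 1) * μ n F q = 0 := by
  have hcq : c ^ q ≠ 0 := pow_ne_zero _ hc0
  have h1 : (-1 : F) ^ (q + 1) = 1 := neg_one_pow_succ hF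
  constructor
  · rw [neg_pow, h1, one_mul, div_pow, inv_pow, pow_q_q hF, pow_succ c q]
    field_simp
    linear_combination hc
  · rw [neg_pow, h1, one_mul, div_pow, inv_pow, pow_q_q hF, pow_succ (c ^ q) q, pow_q_q hF]
    field_simp
    linear_combination hc

/-- The Weyl element at a single coordinate pair. -/
def sl {k : Fin n} (hk : Fin.rev k ≠ k) (a c : F) (hc0 : c ≠ 0)
    (hc : c + c ^ q + a ^ (q + 1) * μ n F q = 0) : ↥(SUJ n F q) :=
  W hF (rev_ne_rev hk) (-(a / c)) (c ^ q)⁻¹ (trace_low hF hc0 hc).1 * W hF hk a c hc *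
    W hF (rev_ne_rev hk) (-(a / c ^ q)) (c ^ q)⁻¹ (trace_low hF hc0 hc).2

section SL

variable {k : Fin n} (hk : Fin.rev k ≠ k) {a c : F} (hc0 : c ≠ 0)
  (hc : c + c ^ q + a ^ (q + 1) * μ n F q = 0)

theorem sl_snd : av (sl hF hk a c hc0 hc) (bv (Fin.rev k)) = c • bv k := by
  have hcq : c ^ q ≠ 0 := pow_ne_zero _ hc0
  have hc' : c + c ^ q + a ^ q * a * antiH q (midV : Fin n → F) midV = 0 := by
    rw [← pow_succ]; exact hc
  rw [sl, av_mul, av_mul, av_W hF, av_W hF, av_W hF, Fin.rev_rev]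
  simp only [antiH_add_left, antiH_sub_left, antiH_smul_left, antiH_bv_midV hF, midV_rev, midV_of_ne hk,
    Pi.add_apply, Pi.sub_apply, Pi.smul_apply, smul_eq_mul, bv_self, bv_ne hk, bv_ne hk.symm,
    neg_pow_q hF, div_pow, pow_q_q hF]
  match_scalars <;> field_simp <;> grind

theorem sl_fst : av (sl hF hk a c hc0 hc) (bv k) = (c ^ q)⁻¹ • bv (Fin.rev k) := by
  have hcq : c ^ q ≠ 0 := pow_ne_zero _ hc0
  have hc' : c + c ^ q + a ^ q * a * antiH q (midV : Fin n → F) midV = 0 := by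
    rw [← pow_succ]; exact hc
  rw [sl, av_mul, av_mul, av_W hF, av_W hF, av_W hF, Fin.rev_rev]
  simp only [antiH_add_left, antiH_sub_left, antiH_smul_left, antiH_bv_midV hF, midV_rev, midV_of_ne hk,
    Pi.add_apply, Pi.sub_apply, Pi.smul_apply, smul_eq_mul, bv_self, bv_ne hk, bv_ne hk.symm,
    neg_pow_q hF, div_pow, pow_q_q hF]
  match_scalars <;> field_simp <;> grind

theorem sl_other {s : Fin n} (h1 : s ≠ k) (h2 : s ≠ Fin.rev k) (hs : Fin.rev s ≠ s ∨ a = 0) :
    av (sl hF hk a c hc0 hc) (bv s) = bv s := by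
  rw [sl, av_mul, av_mul, av_W hF, av_W hF, av_W hF, Fin.rev_rev]
  rcases hs with hs | hs
  · simp [antiH_bv_midV hF, midV_of_ne hs, bv_ne h1.symm, bv_ne h2.symm, zero_pow_q hF]
  · subst hs
    simp [bv_ne h1.symm, bv_ne h2.symm, zero_pow_q hF]

theorem sl_mid {s : Fin n} (hs : Fin.rev s = s) :
    ∃ ρ : F, av (sl hF hk a c hc0 hc) (bv s) = ρ • bv s := by
  refine ⟨1 + a ^ (q + 1) / c, ?_⟩
  have h1 : s ≠ k := fun e => hk (e ▸ hs)
  have h2 : s ≠ Fin.rev k := fun e => rev_ne_rev hk (e ▸ hs)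
  have hcq : c ^ q ≠ 0 := pow_ne_zero _ hc0
  have hmu := mu_of_eq hF hs
  have hμ : antiH q (bv s : Fin n → F) (bv s) = 1 := by rw [antiH_bv_bv hF, if_pos hs]
  rw [hmu, pow_succ, mul_one] at hc
  rw [sl, av_mul, av_mul, av_W hF, av_W hF, av_W hF, Fin.rev_rev, midV_eq_bv hs]
  simp only [antiH_add_left, antiH_sub_left, antiH_smul_left, antiH_bv_right hF, hs,
    Pi.add_apply, Pi.sub_apply, Pi.smul_apply, smul_eq_mul, bv_self, bv_ne hk, bv_ne hk.symm, bv_ne h1,
    bv_ne h1.symm, bv_ne h2, bv_ne h2.symm, neg_pow_q hF, div_pow, pow_q_q hF]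
  match_scalars <;> field_simp <;> grind

end SL

theorem conj_eq_of_comm {u y : ↥(SUJ n F q)} (h : u * y = y * u) : u * y * u⁻¹ = y := by
  rw [h, mul_inv_cancel_right]

omit hF in
/-- Unitriangular elements fix the first basis vector. -/
theorem av_uni_first {u : ↥(SUJ n F q)} (hu : u ∈ (uni : Subgroup ↥(SUJ n F q))) {e0 : Fin n}
    (h0 : (e0 : ℕ) = 0) : av u (bv e0) = bv e0 := by
  funext t
  rw [av_bv, hu t e0 (show (e0 : ℕ) ≤ t by omega), bv_apply, Matrix.one_apply]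

omit hF in
/-- Diagonal entries of unitriangular elements. -/
theorem av_uni_self {u : ↥(SUJ n F q)} (hu : u ∈ (uni : Subgroup ↥(SUJ n F q))) (i : Fin n) :
    av u (bv i) i = 1 := by
  rw [av_bv, hu i i le_rfl, Matrix.one_apply_eq]

/-- Centralizing a transvection at a top vector fixes it. -/
theorem fix_top_of_comm {u : ↥(SUJ n F q)} (hu : u ∈ (uni : Subgroup ↥(SUJ n F q))) {i : Fin n}
    (hi : Fin.rev i ≠ i) {δ : F} (hδ0 : δ ≠ 0) (hδ : δ + δ ^ q = 0)
    (h : u * trv hF (bv i) (iso_bv hF hi) δ hδ = trv hF (bv i) (iso_bv hF hi) δ hδ * u) :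
    av u (bv i) = bv i := by
  have h' := conj_eq_of_comm hF h
  rw [conj_trv hF] at h'
  exact eq_bv_of_trv hF (av_uni_self hu i) _ _ hδ0 hδ h'

/-- If `u` fixes the basis vector `i`, the coordinate `rev i` is left unchanged. -/
theorem coord_of_fix {u : ↥(SUJ n F q)} {i : Fin n} (h : av u (bv i) = bv i) (x : Fin n → F) :
    av u x (Fin.rev i) = x (Fin.rev i) := by
  have h1 := av_herm u x (bv i)
  rwa [h, antiH_bv_right hF, antiH_bv_right hF] at h1

/-- The centre of the unitriangular group. -/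
theorem center_uni (hn : 4 ≤ n) {u : ↥(SUJ n F q)} (hu : u ∈ (uni : Subgroup ↥(SUJ n F q)))
    (hc : ∀ y ∈ (uni : Subgroup ↥(SUJ n F q)), u * y = y * u) {e0 : Fin n} (h0 : (e0 : ℕ) = 0)
    (he : Fin.rev e0 ≠ e0) :
    ∃ (γ : F) (hγ : γ + γ ^ q = 0), u = trv hF (bv e0) (iso_bv hF he) γ hγ := by
  classical
  obtain ⟨δ, hδ0, hδ⟩ := exists_trace_zero_ne hF
  obtain ⟨b, hb⟩ := exists_not_fixed hF
  have he0 : e0 < Fin.rev e0 := lt_of_le_of_ne (show (e0 : ℕ) ≤ Fin.rev e0 by omega) he.symm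
  have htop : ∀ i : Fin n, i < Fin.rev i → av u (bv i) = bv i := fun i hi =>
    fix_top_of_comm hF hu (top_ne hi) hδ0 hδ (hc _ (trv_bv_mem_uni hF hi hδ))
  have hmid : ∀ s : Fin n, Fin.rev s = s → av u (bv s) = bv s := by
    intro s hs
    have hs0 : s ≠ e0 := fun e => he (e ▸ hs)
    have hW : ∀ a : F, (∀ t, t ≠ e0 → a * av u (bv s) t = a * (bv s : Fin n → F) t) ∧
        (a * av u (bv s) e0) ^ q - a * av u (bv s) e0 = 0 := by
      intro a
      obtain ⟨c, hc'⟩ := exists_trace_param hF (n := n) a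
      have h := conj_eq_of_comm hF (hc _ (W_mem_uni hF he he0 a c hc'))
      rw [W, conj_eich] at h
      have h2 := eich_bv_inj hF he (v := av u (a • (midV : Fin n → F))) (w := a • midV) (c := c)
        ((isEich_W hF he hc').map u |> fun H => ⟨iso_bv hF he, by
          have := H.perp; rwa [av_uni_first hu h0] at this, H.trace⟩) (isEich_W hF he hc')
        (by rw [← h]; exact eich_congr hF _ _ (av_uni_first hu h0).symm rfl rfl)
      simp only [midV_eq_bv hs, av_smul, Pi.smul_apply, smul_eq_mul, bv_ne hs0.symm, mul_zero,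
        zero_pow_q hF, sub_zero] at h2
      exact h2
    funext t
    by_cases ht : t = e0
    · subst ht
      rw [bv_ne hs0.symm]
      by_contra hne
      have h1 := (hW (b / av u (bv s) t)).2
      rw [div_mul_cancel₀ _ hne, sub_eq_zero] at h1
      exact hb h1
    · simpa using (hW 1).1 t ht
  have hlow : ∀ (x : Fin n → F) (t : Fin n), ¬ t < Fin.rev t → av u x t = x t := by
    intro x t ht
    have h1 := coord_of_fix hF (u := u) (i := Fin.rev t) ?_ x
    · rwa [Fin.rev_rev] at h1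
    by_cases h : Fin.rev t = t
    · rw [h]; exact hmid t h
    · exact htop _ (by rw [Fin.rev_rev]; exact lt_of_le_of_ne (not_lt.1 ht) h)
  have hX : ∀ (l j : Fin n), l < Fin.rev l → l ≠ e0 → ¬ j < Fin.rev j → ∀ a : F,
      a * av u (bv j) l +
        a ^ q * (bv j : Fin n → F) (Fin.rev e0) * av u (bv (Fin.rev l)) e0 = 0 := by
    intro l j hl hl0 hj a
    have hlt : e0 < l := show (e0 : ℕ) < l by
      have : (l : ℕ) ≠ e0 := fun e => hl0 (Fin.ext e)
      omega
    have hjl : l ≠ j := fun e => hj (e ▸ hl)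
    have h := congrArg (fun g => av g (bv j) e0)
      (hc _ (X_mem_uni hF he (top_ne hl) hlt.ne hlt a))
    simp only [av_mul, av_X hF, av_add, av_sub, av_smul, bv_ne hjl, mul_zero,
      zero_smul, add_zero, Pi.add_apply, Pi.sub_apply, Pi.smul_apply, smul_eq_mul, bv_self, mul_one,
      hlow (bv j) (Fin.rev e0) (by rw [Fin.rev_rev]; exact he0.not_gt)] at h
    have h3 : e0 ≠ Fin.rev l := fun e => (lt_irrefl l) (lt_of_lt_of_le hl (e ▸ hlt.le))
    rw [bv_ne h3, mul_zero, sub_zero] at h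
    linear_combination -h
  have hzero : ∀ l j : Fin n, l < Fin.rev l → ¬ j < Fin.rev j → ¬ (l = e0 ∧ j = Fin.rev e0) →
      av u (bv j) l = (bv j : Fin n → F) l := by
    intro l j hl hj hne
    rw [bv_ne (show l ≠ j from fun e => hj (e ▸ hl))]
    by_cases hl0 : l = e0
    · subst hl0
      have hj0 : j ≠ Fin.rev l := fun e => hne ⟨rfl, e⟩
      by_cases hjm : Fin.rev j = j
      · rw [hmid j hjm, bv_ne (show l ≠ j from fun e => hj (e ▸ hl))]
      have hl' : Fin.rev j < Fin.rev (Fin.rev j) := by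
        rw [Fin.rev_rev]; exact lt_of_le_of_ne (not_lt.1 hj) hjm
      have hl'0 : Fin.rev j ≠ l := fun e => hj0 (by rw [← e, Fin.rev_rev])
      have key := hX (Fin.rev j) (Fin.rev l) hl' hl'0 (by rw [Fin.rev_rev]; exact he0.not_gt)
      simp only [Fin.rev_rev, bv_self, mul_one] at key
      have k1 := key 1
      have k2 := key b
      simp only [one_mul, one_pow] at k1
      have : (b ^ q - b) * av u (bv j) l = 0 := by linear_combination k2 - b * k1
      exact (mul_eq_zero.1 this).resolve_left (sub_ne_zero.2 hb)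
    · by_cases hj0 : j = Fin.rev e0
      · subst hj0
        have key := hX l (Fin.rev e0) hl hl0 hj
        simp only [bv_self, mul_one] at key
        have k1 := key 1
        have k2 := key b
        simp only [one_mul, one_pow] at k1
        have : (b - b ^ q) * av u (bv (Fin.rev e0)) l = 0 := by linear_combination k2 - b ^ q * k1
        exact (mul_eq_zero.1 this).resolve_left (sub_ne_zero.2 hb.symm)
      · have h := hX l j hl hl0 hj 1
        simpa [bv_ne (Ne.symm hj0)] using h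
  set γ := av u (bv (Fin.rev e0)) e0 with hγdef
  have hcol : av u (bv (Fin.rev e0)) = bv (Fin.rev e0) + γ • bv e0 := by
    funext t
    by_cases ht0 : t = e0
    · subst ht0
      simp [hγdef, bv_ne he.symm]
    · by_cases ht : t < Fin.rev t
      · rw [hzero t _ ht (by rw [Fin.rev_rev]; exact he0.not_gt) (fun h => ht0 h.1)]
        simp [bv_ne ht0]
      · rw [hlow _ t ht]
        simp [bv_ne ht0]
  have hγ : γ + γ ^ q = 0 := by
    have h1 := av_herm u (bv (Fin.rev e0)) (bv (Fin.rev e0))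
    rw [hcol, iso_bv hF (rev_ne_rev he)] at h1
    simp only [antiH_add_left, antiH_add_right hF, antiH_smul_left, antiH_smul_right, antiH_bv_bv hF,
      Fin.rev_rev, if_neg he, if_neg he.symm, if_true, mul_one, mul_zero, zero_add, add_zero] at h1
    linear_combination h1
  refine ⟨γ, hγ, av_ext_bv fun s => ?_⟩
  rw [av_trv hF, antiH_bv_right hF]
  by_cases hs : s = Fin.rev e0
  · subst hs
    rw [hcol, bv_self, mul_one]
  rw [bv_ne (Ne.symm hs), mul_zero, zero_smul, add_zero]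
  by_cases hst : s < Fin.rev s
  · exact htop s hst
  funext t
  by_cases ht : t < Fin.rev t
  · exact hzero t s ht hst (fun h => hs h.2)
  · exact hlow _ t ht

/-- Height function of the minimal parabolic at a short simple root. -/
def shortF (i : Fin n) : Fin n → ℕ := fun s =>
  if (s : ℕ) = i + 1 then i else if (s : ℕ) = n - 1 - i then n - 2 - i else s

/-- Height function of the minimal parabolic at the last simple root. -/
def lastF (k : Fin n) : Fin n → ℕ := fun s =>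
  if (k : ℕ) ≤ s ∧ (s : ℕ) ≤ n - 1 - k then k else s

omit hF [Fintype F] in
theorem shortF_mono {i j : Fin n} (hij : (j : ℕ) = i + 1) (hj : j < Fin.rev j) : Monotone (shortF i) := by
  intro a b hab
  have h1 : (j : ℕ) < n - 1 - j := rev_val j ▸ (hj : (j : ℕ) < (Fin.rev j : Fin n))
  have h2 : (a : ℕ) ≤ b := hab
  unfold shortF
  split_ifs <;> omega

omit hF [Fintype F] in
theorem lastF_mono {k : Fin n} (hk : k < Fin.rev k) : Monotone (lastF k) := by
  intro a b hab
  have h1 : (k : ℕ) < n - 1 - k := rev_val k ▸ (hk : (k : ℕ) < (Fin.rev k : Fin n))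
  have h2 : (a : ℕ) ≤ b := hab
  unfold lastF
  split_ifs <;> omega

theorem short_centric {i j : Fin n} (hij : (j : ℕ) = i + 1) (hj : j < Fin.rev j) {u : ↥(SUJ n F q)}
    (hu : u ∈ (uni : Subgroup ↥(SUJ n F q)))
    (hc : ∀ r ∈ (rad (shortF i) : Subgroup ↥(SUJ n F q)), u * r = r * u) :
    u ∈ (rad (shortF i) : Subgroup ↥(SUJ n F q)) := by
  obtain ⟨δ, hδ0, hδ⟩ := exists_trace_zero_ne hF
  have hjv : (j : ℕ) < n - 1 - j := rev_val j ▸ (hj : (j : ℕ) < (Fin.rev j : Fin n))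
  have hjf : trv hF (bv j) (iso_bv hF (top_ne hj)) δ hδ ∈ (rad (shortF i) : Subgroup ↥(SUJ n F q)) := by
    refine mem_rad_of_bv fun s t hst => ?_
    rw [av_trv hF, antiH_bv_right hF, Pi.add_apply, Pi.smul_apply, smul_eq_mul]
    by_cases ht : t = j
    · by_cases hs : Fin.rev j = s
      · exfalso
        subst ht hs
        unfold shortF at hst
        rw [rev_val] at hst
        split_ifs at hst <;> omega
      · rw [bv_ne hs, mul_zero, zero_mul, add_zero]
    · rw [bv_ne ht, mul_zero, add_zero]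
  have hfix := fix_top_of_comm hF hu (top_ne hj) hδ0 hδ (hc _ hjf)
  intro a b hab
  by_cases hle : (b : ℕ) ≤ a
  · exact hu a b hle
  have hlt : (a : ℕ) < b := by omega
  have hij' : i ≠ j := fun e => by rw [e] at hij; omega
  have hcases : (a = i ∧ b = j) ∨ (a = Fin.rev j ∧ b = Fin.rev i) := by
    unfold shortF at hab
    simp only [Fin.ext_iff, rev_val]
    split_ifs at hab <;> omega
  rw [Matrix.one_apply_ne (fun e : a = b => by rw [e] at hlt; omega), ← av_bv]
  rcases hcases with ⟨rfl, rfl⟩ | ⟨rfl, rfl⟩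
  · rw [hfix, bv_ne hij']
  · rw [coord_of_fix hF hfix, bv_ne (fun e => hij' (Fin.rev_injective e).symm)]

theorem last_centric {k e0 : Fin n} (hk : k < Fin.rev k) (hlast : n ≤ 2 * (k : ℕ) + 3)
    (h0 : (e0 : ℕ) = 0) (hk1 : 1 ≤ (k : ℕ)) {u : ↥(SUJ n F q)}
    (hu : u ∈ (uni : Subgroup ↥(SUJ n F q)))
    (hc : ∀ r ∈ (rad (lastF k) : Subgroup ↥(SUJ n F q)), u * r = r * u) :
    u ∈ (rad (lastF k) : Subgroup ↥(SUJ n F q)) := by
  have hkv : (k : ℕ) < n - 1 - k := rev_val k ▸ (hk : (k : ℕ) < (Fin.rev k : Fin n))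
  have he : Fin.rev e0 ≠ e0 := fun e => by
    have := congrArg Fin.val e
    rw [rev_val, h0] at this
    omega
  have hek : e0 ≠ k := fun e => by rw [e] at h0; omega
  have hek' : e0 ≠ Fin.rev k := fun e => by
    have := congrArg Fin.val e
    rw [rev_val] at this
    omega
  have hXf : X hF he (top_ne hk) hek 1 ∈ (rad (lastF k) : Subgroup ↥(SUJ n F q)) := by
    refine mem_rad_of_bv fun s t hst => ?_
    unfold lastF at hst
    rw [av_X hF]
    simp only [one_pow, one_mul, Pi.add_apply, Pi.sub_apply, Pi.smul_apply, smul_eq_mul, bv_apply]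
    have h1 : ¬ (t = e0 ∧ k = s) := by
      rintro ⟨rfl, rfl⟩
      split_ifs at hst <;> omega
    have h2 : ¬ (t = Fin.rev k ∧ Fin.rev e0 = s) := by
      rintro ⟨rfl, rfl⟩
      rw [rev_val, rev_val, h0] at hst
      split_ifs at hst <;> omega
    split_ifs <;> simp_all
  have hWf : ∀ c : F, ∀ hc' : c + c ^ q + (1 : F) ^ (q + 1) * μ n F q = 0,
      W hF he 1 c hc' ∈ (rad (lastF k) : Subgroup ↥(SUJ n F q)) := by
    intro c hc'
    refine mem_rad_of_bv fun s t hst => ?_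
    unfold lastF at hst
    rw [av_W hF, antiH_bv_midV hF]
    simp only [one_pow, one_mul, mul_one, Pi.add_apply, Pi.sub_apply, Pi.smul_apply, smul_eq_mul, bv_apply]
    have h1 : ¬ (t = e0 ∧ Fin.rev e0 = s) := by
      rintro ⟨rfl, rfl⟩
      rw [rev_val, h0] at hst
      split_ifs at hst <;> omega
    have h2 : ¬ (t = e0 ∧ Fin.rev s = s) := by
      rintro ⟨rfl, h⟩
      have := congrArg Fin.val h
      rw [rev_val] at this
      split_ifs at hst <;> omega
    have h3 : ¬ (Fin.rev t = t ∧ Fin.rev e0 = s) := by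
      rintro ⟨h, rfl⟩
      have := congrArg Fin.val h
      rw [rev_val] at this
      rw [rev_val, h0] at hst
      split_ifs at hst <;> omega
    by_cases hs : Fin.rev e0 = s <;> by_cases ht : t = e0 <;> by_cases hts : Fin.rev t = t <;>
      by_cases hss : Fin.rev s = s <;> simp_all [midV_of_ne, midV_of_eq]
  have hfirst := av_uni_first hu h0
  have hk' : ∀ t : Fin n, t ≠ e0 → av u (bv (Fin.rev k)) t = (bv (Fin.rev k) : Fin n → F) t := by
    have h := conj_eq_of_comm hF (hc _ hXf)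
    have hX' : X hF he (top_ne hk) hek 1 = eich hF (bv e0) (bv (Fin.rev k)) 0
        (by have := isEich_X hF he (top_ne hk) hek (1 : F); rwa [one_smul] at this) :=
      eich_congr hF _ _ (one_smul F _) rfl rfl
    rw [hX', conj_eich] at h
    have h2 : IsEich q (bv e0) (av u (bv (Fin.rev k))) (0 : F) := by
      have := (isEich_X hF he (top_ne hk) hek (1 : F)).map u
      rwa [one_smul, hfirst] at this
    exact (eich_bv_inj hF he h2 _ ((eich_congr hF _ _ hfirst.symm rfl rfl).trans h)).1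
  intro a b hab
  by_cases hle : (b : ℕ) ≤ a
  · exact hu a b hle
  have hlt : (a : ℕ) < b := by omega
  obtain ⟨hka, hbk⟩ : (k : ℕ) ≤ a ∧ (b : ℕ) ≤ n - 1 - k := by
    unfold lastF at hab
    split_ifs at hab <;> omega
  have hne : a ≠ b := fun e => by rw [e] at hlt; omega
  have ha0 : a ≠ e0 := fun e => by rw [e] at hka; omega
  rw [Matrix.one_apply_ne hne, ← av_bv]
  by_cases hb : b = Fin.rev k
  · subst hb
    rw [hk' a ha0, bv_ne hne]
  have hbv : (b : ℕ) ≠ n - 1 - k := fun e => hb (Fin.ext (by rw [rev_val, e]))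
  have hbm : Fin.rev b = b := Fin.ext (by rw [rev_val]; omega)
  obtain ⟨c, hc'⟩ := exists_trace_param hF (n := n) (1 : F)
  have h := conj_eq_of_comm hF (hc _ (hWf c hc'))
  rw [W, conj_eich] at h
  have h2 : IsEich q (bv e0) (av u ((1 : F) • (midV : Fin n → F))) c := by
    have := (isEich_W hF he hc').map u
    rwa [hfirst] at this
  have h3 := (eich_bv_inj hF he h2 _ ((eich_congr hF _ _ hfirst.symm rfl rfl).trans h)).1 a ha0
  rw [one_smul, midV_eq_bv hbm] at h3
  rw [h3, bv_ne hne]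

end CfsgLib.Unitary.Anti
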