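import Cfsg.Agent.Classical.Unitary.Anti.Basic
import Cfsg.Agent.Classical.Unitary.Herm
import Mathlib.LinearAlgebra.Matrix.NonsingularInverse

/-!
The standard Hermitian form has antidiagonal Gram matrix in a suitable basis, so `SU_n(q)` is isomorphic
to the special unitary group of the antidiagonal form.
-/

set_option autoImplicit false

namespace CfsgLib.Unitary.Anti

open Matrix Cfsg CfsgLib.Unitary

variable {F : Type*} [Field F] [Fintype F] {n q : ℕ}

omit [Fintype F] in
theorem hermForm_pair (a b : F) {i j : Fin n} (v : Fin n → F) :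
    Cfsg.hermForm n F q (a • bv i + b • bv j) v = a * v i ^ q + b * v j ^ q := by
  simp [Cfsg.hermForm, bv_apply, add_mul, Finset.sum_add_distrib]

/-- A basis with antidiagonal Gram matrix. -/
def stdCol (α t : F) (s : Fin n) : Fin n → F :=
  if s < Fin.rev s then (1 : F) • bv s + α • bv (Fin.rev s)
  else if Fin.rev s < s then (1 + t) • bv (Fin.rev s) + (t * α) • bv s
  else (1 : F) • bv s + (0 : F) • bv s

variable (hF : Fintype.card F = q ^ 2)

include hF

theorem hermForm_stdCol {α t : F} (hα : α ^ (q + 1) = -1) (ht : t + t ^ q = -1) (s r : Fin n) :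
    Cfsg.hermForm n F q (stdCol α t s) (stdCol α t r) = if Fin.rev r = s then 1 else 0 := by
  have h1q : (1 + t) ^ q = 1 + t ^ q := by rw [add_pow_q hF, one_pow]
  rw [pow_succ'] at hα
  have hz := zero_pow_q (F := F) hF
  have hne : ∀ {a b : Fin n}, a ≠ b → Fin.rev a ≠ Fin.rev b := fun h e => h (Fin.rev_injective e)
  by_cases hr1 : r = s
  · subst hr1
    rcases lt_trichotomy r (Fin.rev r) with h | h | h
    · rw [stdCol, if_pos h, hermForm_pair, if_neg h.ne']
      simp [bv_ne h.ne, bv_ne h.ne', hα]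
    · rw [stdCol, if_neg h.not_lt, if_neg h.not_gt, hermForm_pair, if_pos h.symm]
      simp [hz]
    · rw [stdCol, if_neg h.not_gt, if_pos h, hermForm_pair, if_neg h.ne]
      simp [bv_ne h.ne, bv_ne h.ne', h1q, hz, mul_pow]
      linear_combination (t * t ^ q) * hα + ht
  by_cases hr2 : r = Fin.rev s
  · subst hr2
    rw [if_pos (Fin.rev_rev s)]
    rcases lt_trichotomy s (Fin.rev s) with h | h | h
    · rw [stdCol, if_pos h, stdCol, Fin.rev_rev, if_neg h.not_gt, if_pos h, hermForm_pair]
      simp [bv_ne h.ne, bv_ne h.ne', h1q, hz, mul_pow]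
      linear_combination (t ^ q) * hα
    · exact absurd h.symm hr1
    · rw [stdCol, if_neg h.not_gt, if_pos h, stdCol, Fin.rev_rev, if_pos h, hermForm_pair]
      simp [bv_ne h.ne, bv_ne h.ne', hz]
      linear_combination t * hα
  rw [if_neg (fun e => hr2 (by rw [← e, Fin.rev_rev]))]
  have h3 : ∀ u : Fin n, (u = s ∨ u = Fin.rev s) → stdCol α t r u = 0 := by
    intro u hu
    have hu1 : u ≠ r := by rcases hu with rfl | rfl <;> tauto
    have hu2 : u ≠ Fin.rev r := by
      rcases hu with rfl | rfl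
      · exact fun e => hr2 (by rw [e, Fin.rev_rev])
      · exact hne (Ne.symm hr1)
    unfold stdCol
    split_ifs <;> simp [bv_ne hu1, bv_ne hu2]
  conv_lhs => arg 4; unfold stdCol
  split_ifs <;> rw [hermForm_pair] <;> simp [h3 s (Or.inl rfl), h3 (Fin.rev s) (Or.inr rfl), hz]

/-- `SU_n(q)` is isomorphic to the unitary group of the antidiagonal form. -/
theorem exists_equiv_SU : Nonempty (↥(SUJ n F q) ≃* ↥(Cfsg.SU n F q)) := by
  classical
  obtain ⟨α, hα⟩ := exists_norm_eq hF (a := (-1 : F)) (by rw [neg_pow_q hF, one_pow])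
  obtain ⟨t, ht⟩ := exists_trace_eq hF (a := (-1 : F)) (by rw [neg_pow_q hF, one_pow])
  set P : Matrix (Fin n) (Fin n) F := Matrix.of fun a s => stdCol α t s a with hP
  have hform : ∀ x y : Fin n → F, Cfsg.hermForm n F q (P *ᵥ x) (P *ᵥ y) = antiH q x y := by
    intro x y
    have e : ∀ z : Fin n → F, P *ᵥ z = ∑ s, z s • stdCol α t s := fun z => by
      funext a; simp [P, Matrix.mulVec, dotProduct, mul_comm]
    rw [e, e]
    have e2 : Cfsg.hermForm n F q (∑ s, x s • stdCol α t s) (∑ s, y s • stdCol α t s) =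
        ∑ s, ∑ r, x s * y r ^ q * Cfsg.hermForm n F q (stdCol α t s) (stdCol α t r) := by
      rw [herm_sum_left]
      refine Finset.sum_congr rfl fun s _ => ?_
      rw [herm_sum_right hF]
      refine Finset.sum_congr rfl fun r _ => ?_
      rw [herm_smul_left, herm_smul_right]
      ring
    rw [e2]
    simp only [hermForm_stdCol hF hα ht, mul_ite, mul_one, mul_zero]
    refine Finset.sum_congr rfl fun s _ => ?_
    rw [Finset.sum_eq_single (Fin.rev s) (fun r _ hr => if_neg fun e => hr (by rw [← e, Fin.rev_rev]))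
      (by simp), if_pos (Fin.rev_rev s)]
  have hdet : IsUnit P.det := by
    refine isUnit_iff_ne_zero.2 fun h => ?_
    obtain ⟨v, hv0, hv⟩ := Matrix.exists_mulVec_eq_zero_iff.2 h
    refine hv0 (antiH_nondeg hF fun w => ?_)
    rw [← hform, hv]
    simp [Cfsg.hermForm]
  have h1 : P * P⁻¹ = 1 := Matrix.mul_nonsing_inv P hdet
  have h2 : P⁻¹ * P = 1 := Matrix.nonsing_inv_mul P hdet
  let e : SpecialLinearGroup (Fin n) F ≃* SpecialLinearGroup (Fin n) F :=
    { toFun := fun g => ⟨P * (g : Matrix (Fin n) (Fin n) F) * P⁻¹, by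
        rw [Matrix.det_mul, Matrix.det_mul, g.2, mul_one, ← Matrix.det_mul, h1, Matrix.det_one]⟩
      invFun := fun g => ⟨P⁻¹ * (g : Matrix (Fin n) (Fin n) F) * P, by
        rw [Matrix.det_mul, Matrix.det_mul, g.2, mul_one, ← Matrix.det_mul, h2, Matrix.det_one]⟩
      left_inv := fun g => Subtype.ext (by
        show P⁻¹ * (P * (g : Matrix (Fin n) (Fin n) F) * P⁻¹) * P = g
        rw [← Matrix.mul_assoc, ← Matrix.mul_assoc, h2, Matrix.one_mul, Matrix.mul_assoc, h2, Matrix.mul_one])
      right_inv := fun g => Subtype.ext (by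
        show P * (P⁻¹ * (g : Matrix (Fin n) (Fin n) F) * P) * P⁻¹ = g
        rw [← Matrix.mul_assoc, ← Matrix.mul_assoc, h1, Matrix.one_mul, Matrix.mul_assoc, h1, Matrix.mul_one])
      map_mul' := fun g h => Subtype.ext (by
        show P * ((g * h : SpecialLinearGroup (Fin n) F) : Matrix (Fin n) (Fin n) F) * P⁻¹ =
          P * (g : Matrix (Fin n) (Fin n) F) * P⁻¹ * (P * (h : Matrix (Fin n) (Fin n) F) * P⁻¹)
        rw [Matrix.SpecialLinearGroup.coe_mul]
        simp only [Matrix.mul_assoc]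
        rw [← Matrix.mul_assoc P⁻¹ P, h2, Matrix.one_mul]) }
  have hmap : (SUJ n F q).map e.toMonoidHom = Cfsg.SU n F q := by
    ext g
    constructor
    · rintro ⟨h, hh, rfl⟩ u v
      show Cfsg.hermForm n F q ((P * (h : Matrix (Fin n) (Fin n) F) * P⁻¹) *ᵥ u)
        ((P * (h : Matrix (Fin n) (Fin n) F) * P⁻¹) *ᵥ v) = _
      simp only [← Matrix.mulVec_mulVec]
      rw [hform]
      refine (hh _ _).trans ?_
      rw [← hform, Matrix.mulVec_mulVec, Matrix.mulVec_mulVec, h1, Matrix.one_mulVec, Matrix.one_mulVec]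
    · intro hg
      refine ⟨e.symm g, fun u v => ?_, e.apply_symm_apply g⟩
      show antiH q ((P⁻¹ * (g : Matrix (Fin n) (Fin n) F) * P) *ᵥ u)
        ((P⁻¹ * (g : Matrix (Fin n) (Fin n) F) * P) *ᵥ v) = _
      simp only [← Matrix.mulVec_mulVec]
      rw [← hform, ← hform]
      simp only [Matrix.mulVec_mulVec, ← Matrix.mul_assoc, h1, Matrix.one_mul]
      rw [← Matrix.mulVec_mulVec, ← Matrix.mulVec_mulVec]
      exact hg _ _
  exact ⟨((SUJ n F q).equivMapOfInjective e.toMonoidHom e.injective).trans (MulEquiv.subgroupCongr hmap)⟩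

end CfsgLib.Unitary.Anti
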