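import Cfsg.Agent.Classical.Unitary.Anti.Basic

/-!
Root elements of the unitary group of the antidiagonal form; block triangular subgroups attached to a
height function on coordinates; the Sylow subgroup, its normalizer and its generation by root elements.
-/

set_option autoImplicit false

namespace CfsgLib.Unitary.Anti

open Matrix Cfsg CfsgLib.Unitary

variable {F : Type*} [Field F] [Fintype F] {n q : ℕ}

theorem rev_ne_rev {i : Fin n} (h : Fin.rev i ≠ i) : Fin.rev (Fin.rev i) ≠ Fin.rev i := by
  rw [Fin.rev_rev]; exact h.symm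

omit [Fintype F] in
theorem rev_val (i : Fin n) : ((Fin.rev i : Fin n) : ℕ) = n - 1 - i := by
  rw [Fin.val_rev]; omega

omit [Fintype F] in
theorem mid_unique {i j : Fin n} (hi : Fin.rev i = i) (hj : Fin.rev j = j) : i = j := by
  have h1 := congrArg Fin.val hi
  have h2 := congrArg Fin.val hj
  rw [rev_val] at h1 h2
  exact Fin.ext (by omega)

omit [Fintype F] in
theorem midV_rev (i : Fin n) : (midV : Fin n → F) (Fin.rev i) = midV i := by
  simp only [midV, Fin.rev_rev]
  exact if_congr ⟨fun h => h.symm, fun h => h.symm⟩ rfl rfl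

omit [Fintype F] in
theorem midV_of_ne {i : Fin n} (h : Fin.rev i ≠ i) : (midV : Fin n → F) i = 0 := if_neg h

omit [Fintype F] in
theorem midV_of_eq {i : Fin n} (h : Fin.rev i = i) : (midV : Fin n → F) i = 1 := if_pos h

/-- The norm of the middle vector. -/
abbrev μ (n : ℕ) (F : Type*) [Field F] (q : ℕ) : F := antiH q (midV : Fin n → F) midV

variable (hF : Fintype.card F = q ^ 2)

include hF

theorem isEich_X {k l : Fin n} (hk : Fin.rev k ≠ k) (hl : Fin.rev l ≠ l) (hkl : k ≠ l) (a : F) :
    IsEich q (a • bv k) (bv (Fin.rev l)) (0 : F) := by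
  have hq := zero_pow_q (F := F) hF
  refine ⟨?_, ?_, ?_⟩
  · rw [antiH_smul_left, antiH_smul_right, antiH_bv_bv hF, if_neg hk, mul_zero, mul_zero]
  · rw [antiH_smul_left, antiH_bv_bv hF, Fin.rev_rev, if_neg hkl.symm, mul_zero]
  · rw [antiH_bv_bv hF, Fin.rev_rev, if_neg hl.symm, hq, add_zero, add_zero]

theorem isEich_W {k : Fin n} (hk : Fin.rev k ≠ k) {a c : F}
    (hc : c + c ^ q + a ^ (q + 1) * μ n F q = 0) : IsEich q (bv k) (a • (midV : Fin n → F)) c := by
  refine ⟨?_, ?_, ?_⟩
  · rw [antiH_bv_bv hF, if_neg hk]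
  · rw [antiH_smul_right, antiH_bv_left hF, midV_rev, midV_of_ne hk, zero_pow_q hF, mul_zero]
  · rw [antiH_smul_left, antiH_smul_right, ← mul_assoc, ← pow_succ']
    exact hc

/-- Short root elements. -/
def X {k l : Fin n} (hk : Fin.rev k ≠ k) (hl : Fin.rev l ≠ l) (hkl : k ≠ l) (a : F) : ↥(SUJ n F q) :=
  eich hF (a • bv k) (bv (Fin.rev l)) 0 (isEich_X hF hk hl hkl a)

/-- Long root elements, and the extra root elements at the middle coordinate. -/
def W {k : Fin n} (hk : Fin.rev k ≠ k) (a c : F) (hc : c + c ^ q + a ^ (q + 1) * μ n F q = 0) :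
    ↥(SUJ n F q) :=
  eich hF (bv k) (a • midV) c (isEich_W hF hk hc)

theorem av_X {k l : Fin n} (hk : Fin.rev k ≠ k) (hl : Fin.rev l ≠ l) (hkl : k ≠ l) (a : F)
    (x : Fin n → F) :
    av (X hF hk hl hkl a) x = x + (a * x l) • bv k - (a ^ q * x (Fin.rev k)) • bv (Fin.rev l) := by
  rw [X, av_eich, antiH_bv_right hF, antiH_smul_right, antiH_bv_right hF, Fin.rev_rev, smul_smul,
    mul_comm (x l) a, zero_mul, zero_smul, add_zero]

theorem av_W {k : Fin n} (hk : Fin.rev k ≠ k) (a c : F) (hc : c + c ^ q + a ^ (q + 1) * μ n F q = 0)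
    (x : Fin n → F) :
    av (W hF hk a c hc) x =
      x + (a ^ q * antiH q x midV + c * x (Fin.rev k)) • bv k - (x (Fin.rev k) * a) • midV := by
  rw [W, av_eich, antiH_bv_right hF, antiH_smul_right]
  module

theorem antiH_midV (x : Fin n → F) {i : Fin n} (hi : Fin.rev i = i) : antiH q x midV = x i := by
  rw [antiH, Finset.sum_eq_single i]
  · rw [midV_rev, midV_of_eq hi, one_pow, mul_one]
  · intro j _ hj
    rw [midV_rev, midV_of_ne (fun h => hj (mid_unique h hi)), zero_pow_q hF, mul_zero]
  · simp

theorem antiH_bv_midV (s : Fin n) : antiH q (bv s) (midV : Fin n → F) = midV s := by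
  rw [antiH_bv_left hF, midV_rev]
  by_cases h : Fin.rev s = s
  · rw [midV_of_eq h, one_pow]
  · rw [midV_of_ne h, zero_pow_q hF]

theorem mu_pow : μ n F q ^ q = μ n F q := antiH_self_fixed hF _

/-- An admissible parameter for any middle coefficient. -/
theorem exists_trace_param (a : F) : ∃ c : F, c + c ^ q + a ^ (q + 1) * μ n F q = 0 := by
  obtain ⟨c, hc⟩ := exists_trace_eq hF (a := -(a ^ (q + 1) * μ n F q)) (by
    rw [neg_pow_q hF, mul_pow, mu_pow hF, norm_pow_q hF])
  exact ⟨c, by rw [hc, neg_add_cancel]⟩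

omit hF

/-- A submonoid of a finite group, as a subgroup. -/
def ofSubmonoid {G : Type*} [Group G] [Finite G] (M : Submonoid G) : Subgroup G where
  toSubmonoid := M
  inv_mem' {x} hx := by
    have h : x⁻¹ = x ^ (orderOf x - 1) := by
      rw [inv_eq_iff_mul_eq_one, ← pow_succ', Nat.sub_add_cancel (orderOf_pos x), pow_orderOf_eq_one]
    rw [h]
    exact M.pow_mem hx _

omit [Fintype F] in
theorem ent_mul (g h : ↥(SUJ n F q)) (a b : Fin n) : ent (g * h) a b = ∑ c, ent g a c * ent h c b := by
  simp [ent, Matrix.mul_apply]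

omit [Fintype F] in
theorem ent_one (a b : Fin n) : ent (1 : ↥(SUJ n F q)) a b = (1 : Matrix (Fin n) (Fin n) F) a b := rfl

omit [Fintype F] in
theorem av_apply (g : ↥(SUJ n F q)) (x : Fin n → F) (a : Fin n) : av g x a = ∑ c, ent g a c * x c := rfl

section Blocks

/-- Block upper triangular elements for a height function. -/
noncomputable def par (f : Fin n → ℕ) : Subgroup ↥(SUJ n F q) :=
  ofSubmonoid
    { carrier := {g | ∀ a b, f b < f a → ent g a b = 0}
      one_mem' := fun a b h => by
        rw [ent_one, Matrix.one_apply_ne]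
        rintro rfl
        exact lt_irrefl _ h
      mul_mem' := fun {g h} hg hh a b hab => by
        rw [ent_mul]
        refine Finset.sum_eq_zero fun c _ => ?_
        rcases lt_or_ge (f c) (f a) with h1 | h1
        · rw [hg a c h1, zero_mul]
        · rw [hh c b (lt_of_lt_of_le hab h1), mul_zero] }

/-- Block upper unitriangular elements for a height function. -/
noncomputable def rad (f : Fin n → ℕ) : Subgroup ↥(SUJ n F q) :=
  ofSubmonoid
    { carrier := {g | ∀ a b, f b ≤ f a → ent g a b = (1 : Matrix (Fin n) (Fin n) F) a b}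
      one_mem' := fun a b _ => rfl
      mul_mem' := fun {g h} hg hh a b hab => by
        rw [ent_mul, Finset.sum_eq_single a]
        · rw [hg a a le_rfl, Matrix.one_apply_eq, one_mul, hh a b hab]
        · intro c _ hca
          rcases le_or_gt (f c) (f a) with h1 | h1
          · rw [hg a c h1, Matrix.one_apply_ne (Ne.symm hca), zero_mul]
          · rw [hh c b (hab.trans h1.le), Matrix.one_apply_ne, mul_zero]
            rintro rfl
            exact absurd hab (not_le.2 h1)
        · simp }

theorem mem_par {f : Fin n → ℕ} {g : ↥(SUJ n F q)} :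
    g ∈ par f ↔ ∀ a b, f b < f a → ent g a b = 0 := Iff.rfl

theorem mem_rad {f : Fin n → ℕ} {g : ↥(SUJ n F q)} :
    g ∈ rad f ↔ ∀ a b, f b ≤ f a → ent g a b = (1 : Matrix (Fin n) (Fin n) F) a b := Iff.rfl

/-- `par f` normalizes `rad f`. -/
theorem par_conj {f : Fin n → ℕ} {y r : ↥(SUJ n F q)} (hy : y ∈ par f) (hr : r ∈ rad f) :
    y * r * y⁻¹ ∈ rad f := by
  have hy' := (par f).inv_mem hy
  intro a b hab
  have h1 : (1 : Matrix (Fin n) (Fin n) F) a b = ∑ c, ent y a c * ent y⁻¹ c b := by
    rw [← ent_mul, mul_inv_cancel, ent_one]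
  rw [h1, mul_assoc, ent_mul]
  refine Finset.sum_congr rfl fun c _ => ?_
  rcases lt_or_ge (f c) (f a) with h2 | h2
  · rw [hy a c h2, zero_mul, zero_mul]
  congr 1
  rw [ent_mul, Finset.sum_eq_single c]
  · rw [hr c c le_rfl, Matrix.one_apply_eq, one_mul]
  · intro d _ hdc
    rcases le_or_gt (f d) (f c) with h3 | h3
    · rw [hr c d h3, Matrix.one_apply_ne (Ne.symm hdc), zero_mul]
    · rw [hy' d b (lt_of_le_of_lt (hab.trans h2) h3), mul_zero]
  · simp

end Blocks

/-- Block unitriangular membership in terms of the basis. -/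
theorem mem_rad_of_bv {f : Fin n → ℕ} {g : ↥(SUJ n F q)}
    (h : ∀ s t, f s ≤ f t → av g (bv s) t = bv s t) : g ∈ rad f := by
  intro a b hab
  have h' := h b a hab
  rw [av_bv] at h'
  rw [h', Matrix.one_apply, bv_apply]

/-- Block triangular membership in terms of the basis. -/
theorem mem_par_of_bv {f : Fin n → ℕ} {g : ↥(SUJ n F q)}
    (h : ∀ s t, f s < f t → av g (bv s) t = 0) : g ∈ par f := fun a b hab => by
  rw [← av_bv]
  exact h b a hab

/-- The unitriangular subgroup. -/
noncomputable def uni : Subgroup ↥(SUJ n F q) := rad fun i => (i : ℕ)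

/-- The triangular subgroup. -/
noncomputable def borel : Subgroup ↥(SUJ n F q) := par fun i => (i : ℕ)

theorem rad_le_uni {f : Fin n → ℕ} (hf : Monotone f) : (rad f : Subgroup ↥(SUJ n F q)) ≤ uni :=
  fun _ hg a b hab => hg a b (hf hab)

theorem uni_le_par {f : Fin n → ℕ} (hf : Monotone f) : (uni : Subgroup ↥(SUJ n F q)) ≤ par f :=
  fun g hg a b hab => by
    have h : (b : ℕ) < a := by
      by_contra h'
      exact absurd (hf (Nat.not_lt.1 h' : a ≤ b)) (not_le.2 hab)
    rw [hg a b h.le, Matrix.one_apply_ne]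
    rintro rfl
    exact lt_irrefl _ h

include hF in
theorem X_mem_uni {k l : Fin n} (hk : Fin.rev k ≠ k) (hl : Fin.rev l ≠ l) (hkl : k ≠ l) (hlt : k < l)
    (a : F) : X hF hk hl hkl a ∈ (uni : Subgroup ↥(SUJ n F q)) := by
  refine mem_rad_of_bv fun s t hst => ?_
  have hst' : s ≤ t := hst
  rw [av_X hF]
  simp only [Pi.add_apply, Pi.sub_apply, Pi.smul_apply, smul_eq_mul, bv_apply]
  by_cases hls : l = s
  · have h1 : t ≠ k := fun h => not_le.2 hlt (hls ▸ h ▸ hst')
    by_cases hks : Fin.rev k = s
    · have h2 : t ≠ Fin.rev l := fun h => not_le.2 (Fin.rev_lt_rev.2 hlt) (hks ▸ h ▸ hst')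
      simp [h1, h2]
    · simp [h1, hks]
  · by_cases hks : Fin.rev k = s
    · have h2 : t ≠ Fin.rev l := fun h => not_le.2 (Fin.rev_lt_rev.2 hlt) (hks ▸ h ▸ hst')
      simp [hls, h2]
    · simp [hls, hks]

include hF in
theorem W_mem_uni {k : Fin n} (hk : Fin.rev k ≠ k) (hlt : k < Fin.rev k) (a c : F)
    (hc : c + c ^ q + a ^ (q + 1) * μ n F q = 0) : W hF hk a c hc ∈ (uni : Subgroup ↥(SUJ n F q)) := by
  refine mem_rad_of_bv fun s t hst => ?_
  have hst' : s ≤ t := hst
  have hmid : ∀ m : Fin n, Fin.rev m = m → k < m ∧ m < Fin.rev k := by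
    intro m hm
    have h1 : (k : ℕ) < n - 1 - k := rev_val k ▸ hlt
    have h2 := congrArg Fin.val hm
    rw [rev_val] at h2
    exact ⟨show (k : ℕ) < m by omega, show (m : ℕ) < (Fin.rev k : Fin n) by rw [rev_val]; omega⟩
  rw [av_W hF, antiH_bv_midV hF]
  simp only [Pi.add_apply, Pi.sub_apply, Pi.smul_apply, smul_eq_mul, bv_apply]
  by_cases hks : Fin.rev k = s
  · have hsm : Fin.rev s ≠ s := by rw [← hks]; exact rev_ne_rev hk
    have h1 : t ≠ k := fun h => not_le.2 hlt (hks ▸ h ▸ hst')
    have h2 : Fin.rev t ≠ t := fun h => not_le.2 (hmid t h).2 (hks ▸ hst')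
    simp [h1, midV_of_ne h2]
  · by_cases hs : Fin.rev s = s
    · have h1 : t ≠ k := fun h => not_le.2 (hmid s hs).1 (h ▸ hst')
      simp [hks, h1]
    · simp [hks, midV_of_ne hs]

theorem diag_mul {g h : ↥(SUJ n F q)} (hg : g ∈ (borel : Subgroup ↥(SUJ n F q)))
    (hh : h ∈ (borel : Subgroup ↥(SUJ n F q))) (a : Fin n) : ent (g * h) a a = ent g a a * ent h a a := by
  rw [ent_mul]
  refine Finset.sum_eq_single a (fun c _ hca => ?_) (by simp)
  rcases lt_or_gt_of_ne hca with h1 | h1
  · rw [hg a c h1, zero_mul]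
  · rw [hh c a h1, mul_zero]

theorem mem_uni_of_borel {g : ↥(SUJ n F q)} (hg : g ∈ (borel : Subgroup ↥(SUJ n F q)))
    (hd : ∀ a, ent g a a = 1) : g ∈ (uni : Subgroup ↥(SUJ n F q)) := by
  intro a b hab
  rcases lt_or_eq_of_le (show b ≤ a from hab) with h | h
  · rw [hg a b h, Matrix.one_apply_ne h.ne']
  · rw [h, hd, Matrix.one_apply_eq]

include hF in
/-- The normalizer of the unitriangular group is triangular. -/
theorem mem_borel_of_normalizing {g : ↥(SUJ n F q)}
    (h : ∀ u ∈ (uni : Subgroup ↥(SUJ n F q)), g⁻¹ * u * g ∈ (uni : Subgroup ↥(SUJ n F q))) :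
    g ∈ (borel : Subgroup ↥(SUJ n F q)) := by
  classical
  have hmove : ∀ i j : Fin n, (j : ℕ) = i + 1 →
      ∃ u ∈ (uni : Subgroup ↥(SUJ n F q)), ent u i j ≠ 0 := by
    intro i j hij
    have hne : i ≠ j := fun e => by rw [e] at hij; omega
    by_cases hj : Fin.rev j = j
    · have hi : Fin.rev i ≠ i := fun e => hne (mid_unique e hj)
      have hlt : i < Fin.rev i := by
        show (i : ℕ) < (Fin.rev i : Fin n)
        have := congrArg Fin.val hj
        rw [rev_val] at this
        rw [rev_val]
        omega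
      obtain ⟨c, hc⟩ := exists_trace_param hF (n := n) (1 : F)
      refine ⟨_, W_mem_uni hF hi hlt 1 c hc, ?_⟩
      rw [← av_bv, av_W hF, antiH_bv_midV hF, midV_of_eq hj]
      have : j ≠ Fin.rev i := fun e => hi (by
        have e' : Fin.rev j = i := by rw [e, Fin.rev_rev]
        rw [hj] at e'
        exact absurd e'.symm hne)
      simp [bv_apply, hne, this.symm]
    by_cases hi : Fin.rev i = i
    · have hlt : Fin.rev j < Fin.rev (Fin.rev j) := by
        rw [Fin.rev_rev]
        show ((Fin.rev j : Fin n) : ℕ) < j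
        have := congrArg Fin.val hi
        rw [rev_val] at this
        rw [rev_val]
        omega
      obtain ⟨c, hc⟩ := exists_trace_param hF (n := n) (1 : F)
      refine ⟨_, W_mem_uni hF (rev_ne_rev hj) hlt 1 c hc, ?_⟩
      rw [← av_bv, av_W hF, antiH_bv_midV hF, Fin.rev_rev]
      have : i ≠ Fin.rev j := fun e => hne (by
        rw [← hi, e, Fin.rev_rev])
      simp [bv_apply, hne, this, midV_of_eq hi, midV_of_ne hj]
    by_cases hji : Fin.rev j = i
    · obtain ⟨δ, hδ, hδ'⟩ : ∃ δ : F, δ ≠ 0 ∧ δ + δ ^ q = 0 := by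
        by_contra hcon
        push Not at hcon
        have h1 := card_trace_zero hF
        have h2 : Nat.card {x : F // x + x ^ q = 0} ≤ 1 := by
          refine Finite.card_le_one_iff_subsingleton.2 ⟨fun x y => Subtype.ext ?_⟩
          rw [not_imp_not.1 (hcon x.1) x.2, not_imp_not.1 (hcon y.1) y.2]
        have := two_le_q hF
        omega
      have hlt : i < Fin.rev i := by rw [← hji, Fin.rev_rev]; show ((Fin.rev j : Fin n) : ℕ) < j; rw [hji]; omega
      refine ⟨_, W_mem_uni hF hi hlt 0 δ (by rw [zero_pow (Nat.succ_ne_zero q), zero_mul, add_zero, hδ']), ?_⟩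
      rw [← av_bv, av_W hF, antiH_bv_midV hF]
      have : j = Fin.rev i := by rw [← hji, Fin.rev_rev]
      simp [bv_apply, hne, ← this, zero_pow_q hF, hδ]
    · refine ⟨_, X_mem_uni hF hi hj hne (show (i : ℕ) < j by omega) 1, ?_⟩
      rw [← av_bv, av_X hF]
      have : i ≠ Fin.rev j := fun e => hji e.symm
      have : Fin.rev i ≠ j := fun e => hji (by rw [← e, Fin.rev_rev])
      simp [bv_apply, hne, *]
  have key : ∀ (k : ℕ) (v : Fin n → F), (∀ a : Fin n, k ≤ (a : ℕ) → v a = 0) →
      ∀ a : Fin n, k ≤ (a : ℕ) → av g v a = 0 := by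
    intro k
    induction k with
    | zero =>
      intro v hv a _
      rw [show v = 0 from funext fun a => hv a (Nat.zero_le _), av_zero, Pi.zero_apply]
    | succ k ih =>
      intro v hv
      by_contra hne
      push Not at hne
      obtain ⟨a₀, ha₀, hne₀⟩ := hne
      obtain ⟨j, hj, hmax⟩ := Finset.exists_max_image
        (Finset.univ.filter fun a : Fin n => av g v a ≠ 0) id ⟨a₀, by simpa using hne₀⟩
      have hjk : k < (j : ℕ) :=
        lt_of_lt_of_le ha₀ (hmax a₀ (by simpa using hne₀) : (a₀ : ℕ) ≤ j)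
      have hjne : av g v j ≠ 0 := (Finset.mem_filter.1 hj).2
      obtain ⟨i, hi⟩ : ∃ i : Fin n, (j : ℕ) = i + 1 := ⟨⟨j - 1, by omega⟩, by simp; omega⟩
      obtain ⟨u, hu, hue⟩ := hmove i j hi
      have hij : i ≠ j := fun e => by rw [e] at hi; omega
      have hua : av u (av g v) i = av g v i + ent u i j * av g v j := by
        rw [av_apply, Finset.sum_eq_add i j hij]
        · rw [hu i i le_rfl, Matrix.one_apply_eq, one_mul]
        · intro c _ hc
          rcases lt_or_gt_of_ne hc.1 with h1 | h1
          · rw [hu i c h1.le, Matrix.one_apply_ne h1.ne', zero_mul]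
          · have : av g v c = 0 := by
              by_contra h2
              have h3 : (c : ℕ) ≤ j := hmax c (by simpa using h2)
              have h4 : (i : ℕ) < c := h1
              exact hc.2 (Fin.ext (by omega))
            rw [this, mul_zero]
        · simp
        · simp
      have hu' := h u hu
      set u' := g⁻¹ * u * g with hu'def
      have hd : ∀ b : Fin n, k ≤ (b : ℕ) → (av u' v - v) b = 0 := by
        intro b hb
        rw [Pi.sub_apply, sub_eq_zero, av_apply, Finset.sum_eq_single b]
        · rw [hu' b b le_rfl, Matrix.one_apply_eq, one_mul]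
        · intro c _ hcb
          rcases le_or_gt (c : ℕ) (b : ℕ) with h1 | h1
          · rw [hu' b c h1, Matrix.one_apply_ne (Ne.symm hcb), zero_mul]
          · rw [hv c (by omega), mul_zero]
        · simp
      have h0 := ih _ hd i (by omega)
      rw [av_sub, hu'def, ← av_mul, mul_assoc g⁻¹, mul_inv_cancel_left, av_mul, Pi.sub_apply, hua,
        add_sub_cancel_left] at h0
      exact mul_ne_zero hue hjne h0
  intro a b hab
  have h1 := key (a : ℕ) (bv b) (fun c hc => bv_ne (by
    rintro rfl
    have : (c : ℕ) < a := hab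
    omega)) a le_rfl
  rwa [av_bv] at h1

include hF in
theorem ent_inv_eq (u : ↥(SUJ n F q)) (a b : Fin n) :
    ent u a b = ent u⁻¹ (Fin.rev b) (Fin.rev a) ^ q := by
  rw [← av_bv, ← av_bv]
  conv_lhs => rw [← Fin.rev_rev a, ← antiH_bv_right hF (av u (bv b)) (Fin.rev a), ← av_av_inv u (bv (Fin.rev a)), av_herm]
  rw [antiH_bv_left hF]

include hF in
/-- Root elements generate the unitriangular group. -/
theorem uni_le {H : Subgroup ↥(SUJ n F q)}
    (hX : ∀ (k l : Fin n) (hk : Fin.rev k ≠ k) (hl : Fin.rev l ≠ l) (hkl : k ≠ l), k < l →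
      l ≠ Fin.rev k → ∀ a, X hF hk hl hkl a ∈ H)
    (hW : ∀ (k : Fin n) (hk : Fin.rev k ≠ k), k < Fin.rev k → ∀ a c hc, W hF hk a c hc ∈ H) :
    (uni : Subgroup ↥(SUJ n F q)) ≤ H := by
  classical
  suffices key : ∀ t : ℕ, ∀ u ∈ (uni : Subgroup ↥(SUJ n F q)),
      (∀ r : Fin n, t ≤ (r : ℕ) → ∀ b, ent u r b = bv b r) → u ∈ H from
    fun u hu => key n u hu fun r hr => absurd r.2 (not_lt.2 hr)
  intro t
  induction t with
  | zero =>
    intro u _ h
    have : u = 1 := av_ext_bv fun s => funext fun r => by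
      rw [av_bv, av_one, h r (Nat.zero_le _)]
    exact this ▸ H.one_mem
  | succ t ih =>
    intro u hu hrows
    by_cases ht : n ≤ t
    · exact ih u hu fun r hr => absurd r.2 (by omega)
    let k : Fin n := ⟨t, by omega⟩
    let cnt : ↥(SUJ n F q) → ℕ := fun v =>
      (Finset.univ.filter fun l : Fin n => k < l ∧ l ≠ Fin.rev k ∧ ent v k l ≠ 0).card
    induction hc : cnt u using Nat.strong_induction_on generalizing u with
    | _ m ihm =>
    have hid : ∀ (r : Fin n) (x : Fin n → F), t + 1 ≤ (r : ℕ) → av u x r = x r := by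
      intro r x hr
      rw [av_apply, Finset.sum_eq_single r]
      · rw [hrows r hr, bv_self, one_mul]
      · intro c _ hcr
        rw [hrows r hr, bv_ne hcr.symm, zero_mul]
      · simp
    have hinv : ∀ (r : Fin n) (x : Fin n → F), t + 1 ≤ (r : ℕ) → av u⁻¹ x r = x r := fun r x hr => by
      have := hid r (av u⁻¹ x) hr
      rw [av_av_inv] at this
      exact this.symm
    have hcol : ∀ b a : Fin n, t + 1 ≤ ((Fin.rev b : Fin n) : ℕ) → ent u a b = bv b a := by
      intro b a hb
      rw [ent_inv_eq hF, ← av_bv, hinv _ _ hb, bv_apply, bv_apply]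
      by_cases hab : a = b
      · subst hab; rw [if_pos rfl, if_pos rfl, one_pow]
      · rw [if_neg (fun e => hab (Fin.rev_injective e).symm), if_neg hab, zero_pow_q hF]
    have hstep : ∀ v : ↥(SUJ n F q), v ∈ H → v ∈ (uni : Subgroup ↥(SUJ n F q)) →
        (∀ r : Fin n, t + 1 ≤ (r : ℕ) → ∀ b, ent (v * u) r b = bv b r) →
        cnt (v * u) < cnt u → u ∈ H := by
      intro v hvH hv hr hlt
      have h := ihm _ (hc ▸ hlt) (v * u) (Subgroup.mul_mem _ hv hu) hr rfl
      have h' := H.mul_mem (H.inv_mem hvH) h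
      rwa [inv_mul_cancel_left] at h'
    have hlower : ∀ b : Fin n, (b : ℕ) ≤ t → ent u k b = bv b k := fun b hb => by
      rw [hu k b hb, Matrix.one_apply, bv_apply]
    by_cases hex : ∃ l : Fin n, k < l ∧ l ≠ Fin.rev k ∧ ent u k l ≠ 0
    · obtain ⟨l, hkl, hlk, hl0⟩ := hex
      have hkl' : k ≠ l := hkl.ne
      have hll : ((Fin.rev l : Fin n) : ℕ) < t := by
        rcases lt_or_ge ((Fin.rev l : Fin n) : ℕ) t with h | h
        · exact h
        exfalso
        rcases eq_or_lt_of_le h with h' | h'
        · exact hlk (by rw [show k = Fin.rev l from Fin.ext h', Fin.rev_rev])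
        · exact hl0 (by rw [hcol l k h', bv_ne hkl'])
      have hlt' : (l : ℕ) > t := hkl
      have hdrop : ∀ v : ↥(SUJ n F q),
          (∀ r : Fin n, t + 1 ≤ (r : ℕ) → ∀ x, av v x r = x r) →
          (∀ b, ent (v * u) k b = ent u k b - ent u k l * bv b l) →
          (∀ r : Fin n, t + 1 ≤ (r : ℕ) → ∀ b, ent (v * u) r b = bv b r) ∧ cnt (v * u) < cnt u := by
        intro v hv1 hv2
        refine ⟨fun r hr b => ?_, ?_⟩
        · rw [← av_bv, av_mul, hv1 r hr, hid r _ hr]
        · refine Finset.card_lt_card ((Finset.ssubset_iff_of_subset ?_).2 ⟨l, ?_, ?_⟩)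
          · intro b hb
            simp only [Finset.mem_filter, Finset.mem_univ, true_and, hv2] at hb ⊢
            refine ⟨hb.1, hb.2.1, ?_⟩
            by_cases hbl : b = l
            · subst hbl
              simp at hb
            · simpa [bv_ne (Ne.symm hbl)] using hb.2.2
          · simp [hkl, hlk, hl0]
          · simp [hv2]
      by_cases hk : Fin.rev k = k
      · have hlm : Fin.rev l ≠ l := fun e => hkl' (mid_unique hk e)
        have hlt2 : Fin.rev l < Fin.rev (Fin.rev l) := by
          rw [Fin.rev_rev]; show ((Fin.rev l : Fin n) : ℕ) < l; omega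
        obtain ⟨c, hc'⟩ := exists_trace_param hF (n := n) (ent u k l)
        have hv := W_mem_uni hF (rev_ne_rev hlm) hlt2 (ent u k l) c hc'
        obtain ⟨h1, h2⟩ := hdrop (W hF (rev_ne_rev hlm) (ent u k l) c hc')
          (fun r hr x => by
            rw [av_W hF]
            have h1 : r ≠ Fin.rev l := fun e => by rw [e] at hr; omega
            have h2 : Fin.rev r ≠ r := fun e => by
              have : r = k := mid_unique e hk
              rw [this] at hr; simp [k] at hr
            simp [bv_apply, h1, midV_of_ne h2])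
          (fun b => by
            rw [← av_bv, av_mul, av_W hF, Fin.rev_rev]
            have h1 : k ≠ Fin.rev l := fun e => by rw [← e] at hll; simp [k] at hll
            simp [bv_apply, h1, midV_of_eq hk, av_bv, hrows l (by omega)]
            split_ifs <;> simp_all
            all_goals exact midV_of_eq hk)
        exact hstep _ (hW _ _ hlt2 _ _ _) hv h1 h2
      · have hlm : Fin.rev l ≠ l := fun e => by
          have := congrArg Fin.val e
          omega
        have hv := X_mem_uni hF hk hlm hkl' hkl (-ent u k l)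
        obtain ⟨h1, h2⟩ := hdrop (X hF hk hlm hkl' (-ent u k l))
          (fun r hr x => by
            rw [av_X hF]
            have h1 : r ≠ Fin.rev l := fun e => by rw [e] at hr; omega
            have h2 : r ≠ k := fun e => by rw [e] at hr; simp [k] at hr
            simp [bv_apply, h1, h2])
          (fun b => by
            rw [← av_bv, av_mul, av_X hF]
            have h1 : k ≠ Fin.rev l := fun e => by rw [← e] at hll; simp [k] at hll
            simp [bv_apply, h1, av_bv, hrows l (by omega)]
            split_ifs <;> simp_all [sub_eq_add_neg])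
        exact hstep _ (hX k l hk hlm hkl' hkl hlk _) hv h1 h2
    · push Not at hex
      have hoff : ∀ b : Fin n, b ≠ Fin.rev k → ent u k b = bv b k := by
        intro b hb
        rcases le_or_gt (b : ℕ) t with h | h
        · exact hlower b h
        · rw [hex b h hb, bv_ne (Fin.ne_of_lt h)]
      by_cases hkk : (k : ℕ) < (Fin.rev k : Fin n)
      · have hk : Fin.rev k ≠ k := fun e => by rw [e] at hkk; omega
        set a := ent u k (Fin.rev k)
        have ha : a + a ^ q = 0 := by
          have h := av_herm u (bv (Fin.rev k)) (bv (Fin.rev k))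
          rw [antiH_bv_bv hF, Fin.rev_rev, if_neg hk.symm, antiH,
            Finset.sum_eq_add k (Fin.rev k) hk.symm] at h
          · rw [Fin.rev_rev, hid (Fin.rev k) _ hkk, bv_self, av_bv] at h
            simpa [a] using h
          · intro r _ hr
            rcases lt_or_ge t (r : ℕ) with h1 | h1
            · rw [hid r _ h1, bv_ne hr.2, zero_mul]
            · have h2 : (r : ℕ) < t := by
                rcases eq_or_lt_of_le h1 with e | e
                · exact absurd (Fin.ext e) hr.1
                · exact e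
              have h3 : t < ((Fin.rev r : Fin n) : ℕ) := by
                rw [rev_val] at hkk ⊢
                simp [k] at hkk
                omega
              rw [hid _ _ h3, bv_ne (fun e => hr.1 (Fin.rev_injective e)), zero_pow_q hF, mul_zero]
          · simp
          · simp
        have hc' : -a + (-a) ^ q + (0 : F) ^ (q + 1) * μ n F q = 0 := by
          rw [neg_pow_q hF, zero_pow (Nat.succ_ne_zero q), zero_mul, add_zero, ← neg_add, ha, neg_zero]
        have hv := W_mem_uni hF hk hkk 0 (-a) hc'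
        have h := ih (W hF hk 0 (-a) hc' * u) (Subgroup.mul_mem _ hv hu) fun r hr b => by
          rw [← av_bv, av_mul, av_W hF]
          rcases eq_or_lt_of_le hr with e | e
          · rw [show r = k from Fin.ext e.symm]
            simp [bv_apply, zero_pow_q hF, hid (Fin.rev k) _ hkk, av_bv]
            by_cases hb : b = Fin.rev k
            · subst hb; simp [a, hk.symm]
            · rw [hoff b hb, bv_apply]; simp [Ne.symm hb]
          · have : r ≠ k := fun e' => by rw [e'] at e; simp [k] at e
            simp [bv_apply, this, hid r _ e]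
        have h' := H.mul_mem (H.inv_mem (hW k hk hkk 0 (-a) hc')) h
        rwa [inv_mul_cancel_left] at h'
      · refine ih u hu fun r hr b => ?_
        rcases eq_or_lt_of_le hr with e | e
        · rw [show r = k from Fin.ext e.symm]
          by_cases hb : b = Fin.rev k
          · exact hlower b (by rw [hb]; exact Nat.le_of_not_lt hkk)
          · exact hoff b hb
        · exact hrows r e b

section Sylow

variable (p : ℕ) [Fact p.Prime] [CharP F p]

omit [Fintype F] in
theorem eq_one_of_pow_prime {x : F} {k : ℕ} (h : x ^ (p ^ k) = 1) : x = 1 := by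
  have : (x - 1) ^ (p ^ k) = 0 := by rw [sub_pow_char_pow, h, one_pow, sub_self]
  exact sub_eq_zero.1 (pow_eq_zero_iff (pow_pos (Fact.out : p.Prime).pos k).ne' |>.1 this)

theorem mem_uni_of_pow {g : ↥(SUJ n F q)} (hg : g ∈ (borel : Subgroup ↥(SUJ n F q))) {k : ℕ}
    (hk : g ^ (p ^ k) = 1) : g ∈ (uni : Subgroup ↥(SUJ n F q)) := by
  refine mem_uni_of_borel hg fun a => eq_one_of_pow_prime p (k := k) ?_
  have : ∀ m : ℕ, g ^ m ∈ (borel : Subgroup ↥(SUJ n F q)) ∧ ent (g ^ m) a a = ent g a a ^ m := by
    intro m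
    induction m with
    | zero => exact ⟨Subgroup.one_mem _, by simp [ent]⟩
    | succ m ih =>
      rw [pow_succ]
      exact ⟨Subgroup.mul_mem _ ih.1 hg, by rw [diag_mul ih.1 hg, ih.2, pow_succ]⟩
  rw [← (this _).2, hk]
  simp [ent]

omit [Fintype F] in
theorem pow_eq_one_of_nilpotent [NeZero n] {u : ↥(SUJ n F q)} {d k : ℕ} (hd : d ≤ p ^ k)
    (h : (((u : SpecialLinearGroup (Fin n) F) : Matrix (Fin n) (Fin n) F) - 1) ^ d = 0) :
    u ^ (p ^ k) = 1 := by
  have h2 := pow_eq_zero_of_le hd h
  rw [sub_pow_char_pow_of_commute _ _ (Commute.one_right _), one_pow, sub_eq_zero] at h2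
  exact Subtype.ext (Subtype.ext (by
    rw [SubmonoidClass.coe_pow, Matrix.SpecialLinearGroup.coe_pow]; exact h2))

theorem pow_uni {u : ↥(SUJ n F q)} (hu : u ∈ (uni : Subgroup ↥(SUJ n F q))) : u ^ (p ^ n) = 1 := by
  rcases Nat.eq_zero_or_pos n with h0 | h0
  · subst h0
    exact Subtype.ext (Subtype.ext (Matrix.ext fun i => i.elim0))
  haveI : NeZero n := ⟨h0.ne'⟩
  set M := ((u : SpecialLinearGroup (Fin n) F) : Matrix (Fin n) (Fin n) F)
  have hN : ∀ d : ℕ, ∀ a b : Fin n, (b : ℕ) < a + d → ((M - 1) ^ d) a b = 0 := by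
    intro d
    induction d with
    | zero =>
      intro a b h
      rw [pow_zero, Matrix.one_apply_ne]
      rintro rfl
      omega
    | succ d ih =>
      intro a b h
      rw [pow_succ, Matrix.mul_apply]
      refine Finset.sum_eq_zero fun c _ => ?_
      rcases lt_or_ge (c : ℕ) (a + d) with h1 | h1
      · rw [ih a c h1, zero_mul]
      · have := hu c b (show (b : ℕ) ≤ c by omega)
        simp only [ent] at this
        rw [Matrix.sub_apply, show M c b = _ from this, sub_self, mul_zero]
  exact pow_eq_one_of_nilpotent p (Nat.lt_pow_self (Fact.out : p.Prime).one_lt).le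
    (Matrix.ext fun a b => hN n a b (by have := b.2; omega))

include hF in
/-- Eichler elements have `p`-power order. -/
theorem pow_eich {e w : Fin n → F} {c : F} (h : IsEich q e w c) : eich hF e w c h ^ (p ^ 2) = 1 := by
  rcases Nat.eq_zero_or_pos n with h0 | h0
  · subst h0
    exact Subtype.ext (Subtype.ext (Matrix.ext fun i => i.elim0))
  haveI : NeZero n := ⟨h0.ne'⟩
  refine pow_eq_one_of_nilpotent p (d := 3) (k := 2) ?_ ?_
  · have := (Fact.out : p.Prime).two_le
    nlinarith
  · refine Matrix.toLin'.injective (LinearMap.ext fun x => ?_)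
    rw [map_zero, LinearMap.zero_apply, Matrix.toLin'_apply, pow_succ, pow_two, ← Matrix.mulVec_mulVec,
      ← Matrix.mulVec_mulVec]
    simp only [Matrix.sub_mulVec, Matrix.one_mulVec]
    have key : ∀ y, av (eich hF e w c h) y - y = antiH q y w • e - antiH q y e • w + (c * antiH q y e) • e :=
      fun y => by rw [av_eich]; module
    show av (eich hF e w c h) (av (eich hF e w c h) (av (eich hF e w c h) x - x) -
        (av (eich hF e w c h) x - x)) -
      (av (eich hF e w c h) (av (eich hF e w c h) x - x) - (av (eich hF e w c h) x - x)) = 0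
    rw [key, key, key]
    simp only [antiH_add_left, antiH_sub_left, antiH_smul_left, h.iso, h.perp, h.perp' hF, mul_zero]
    module

include hF in
theorem uni_maximal {P : Subgroup ↥(SUJ n F q)} (hP : IsPGroup p P)
    (hle : (uni : Subgroup ↥(SUJ n F q)) ≤ P) : P = uni := by
  by_contra hne
  have hlt : uni.subgroupOf P < ⊤ := by
    rw [lt_top_iff_ne_top, Ne, Subgroup.subgroupOf_eq_top]
    exact fun h => hne (le_antisymm h hle)
  haveI : Group.IsNilpotent P := hP.isNilpotent
  obtain ⟨s, hs, hs'⟩ := SetLike.exists_of_lt (Group.normalizerCondition_of_isNilpotent _ hlt)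
  obtain ⟨k, hk⟩ := hP s
  refine hs' (mem_uni_of_pow p (mem_borel_of_normalizing hF fun u hu => ?_) (k := k)
    (congrArg Subtype.val hk))
  exact (Subgroup.mem_normalizer_iff''.1 hs ⟨u, hle hu⟩).1 hu

/-- The unitriangular group is a Sylow subgroup. -/
noncomputable def uniSylow (hF : Fintype.card F = q ^ 2) : Sylow p ↥(SUJ n F q) where
  toSubgroup := uni
  isPGroup' := fun u => ⟨n, Subtype.ext (pow_uni p u.2)⟩
  is_maximal' := uni_maximal hF p

end Sylow

end CfsgLib.Unitary.Anti
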